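import Mathlib
import Cfsg.Agent.H29.MetaAct

set_option autoImplicit false

/-!
# A `p'`-group of automorphisms stabilising a line of the Frattini quotient (piece S5287-O2)

If `X` is a `p`-group with `|X / Φ(X)| ≤ p ^ 2` and `H ≤ Aut X` is a `p'`-group stabilising a
subgroup of order `p` of `X / Φ(X)`, then `H` is abelian of exponent dividing `p - 1`.
-/

namespace Cfsg.Agent.Helper55.TriAut

open Cfsg.Agent.H29

section Core
variable {W : Type*} [CommGroup W] [Finite W] {p : ℕ} [hp : Fact p.Prime]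

/-- `θ` maps `z` to `z ^ l` and acts on `W / ⟨z⟩` as the `m`-th power map. -/
def Ty (z : W) (θ : MulAut W) (l m : ℕ) : Prop :=
  θ z = z ^ l ∧ ∀ w : W, ∃ a : ℕ, θ w = w ^ m * z ^ a

/-- `θ` fixes `z` and acts trivially on `W / ⟨z⟩`. -/
def Unip (z : W) (θ : MulAut W) : Prop :=
  θ z = z ∧ ∀ w : W, ∃ a : ℕ, θ w = w * z ^ a

omit [Finite W] in
lemma ty_one (z : W) : Ty z 1 1 1 :=
  ⟨by simp, fun w => ⟨0, by simp⟩⟩

omit [Finite W] in
lemma ty_mul {z : W} {θ θ' : MulAut W} {l m l' m' : ℕ} (h : Ty z θ l m) (h' : Ty z θ' l' m') :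
    Ty z (θ * θ') (l * l') (m * m') := by
  refine ⟨?_, fun w => ?_⟩
  · rw [MulAut.mul_apply, h'.1, map_pow, h.1, ← pow_mul]
  · obtain ⟨a', ha'⟩ := h'.2 w
    obtain ⟨a, ha⟩ := h.2 w
    refine ⟨a * m' + l * a', ?_⟩
    rw [MulAut.mul_apply, ha', map_mul, map_pow, map_pow, ha, h.1, mul_pow, ← pow_mul, ← pow_mul,
      ← pow_mul, mul_assoc, ← pow_add]

omit [Finite W] in
lemma ty_pow {z : W} {θ : MulAut W} {l m : ℕ} (h : Ty z θ l m) (k : ℕ) :
    Ty z (θ ^ k) (l ^ k) (m ^ k) := by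
  induction k with
  | zero => simpa using ty_one z
  | succ k ih =>
    rw [pow_succ, pow_succ, pow_succ]
    exact ty_mul ih h

omit [Finite W] hp in
lemma unip_of_ty (hexp : ∀ a : W, a ^ p = 1) {z : W} {θ : MulAut W} {l m : ℕ} (h : Ty z θ l m)
    (hl : l ≡ 1 [MOD p]) (hm : m ≡ 1 [MOD p]) : Unip z θ := by
  have key : ∀ (w : W) (k : ℕ), k ≡ 1 [MOD p] → w ^ k = w := by
    intro w k hk
    have hk' : k % p = 1 % p := hk
    rw [pow_eq_pow_mod k (hexp w), hk', ← pow_eq_pow_mod 1 (hexp w), pow_one]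
  refine ⟨by rw [h.1, key z l hl], fun w => ?_⟩
  obtain ⟨a, ha⟩ := h.2 w
  exact ⟨a, by rw [ha, key w m hm]⟩

lemma exists_ty (hexp : ∀ a : W, a ^ p = 1) (hcard : Nat.card W ≤ p ^ 2) {z : W} (hz : z ≠ 1)
    (θ : MulAut W) (hθ : θ z ∈ Subgroup.zpowers z) {n : ℕ} (hn0 : 0 < n) (hn : θ ^ n = 1) :
    ∃ l m : ℕ, Ty z θ l m ∧ l ^ n ≡ 1 [MOD p] ∧ m ^ n ≡ 1 [MOD p] ∧
      l ^ (p - 1) ≡ 1 [MOD p] ∧ m ^ (p - 1) ≡ 1 [MOD p] := by
  have hoz : orderOf z = p := orderOf_eq_prime (hexp z) hz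
  obtain ⟨l, hl⟩ : ∃ l : ℕ, θ z = z ^ l := by
    rw [← mem_powers_iff_mem_zpowers] at hθ
    obtain ⟨l, hl⟩ := (Submonoid.mem_powers_iff _ _).1 hθ
    exact ⟨l, hl.symm⟩
  have fermat : ∀ k : ℕ, ¬ p ∣ k → k ^ (p - 1) ≡ 1 [MOD p] := by
    intro k hk
    have hcop : Nat.Coprime k p := ((Nat.Prime.coprime_iff_not_dvd hp.out).2 hk).symm
    have h1 := Nat.ModEq.pow_totient hcop
    rwa [Nat.totient_prime hp.out] at h1
  have hpowz : ∀ k : ℕ, (θ ^ k) z = z ^ (l ^ k) := by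
    intro k
    induction k with
    | zero => simp
    | succ k ih => rw [pow_succ, MulAut.mul_apply, hl, map_pow, ih, ← pow_mul, ← pow_succ]
  have hln : l ^ n ≡ 1 [MOD p] := by
    have h1 := hpowz n
    rw [hn, MulAut.one_apply] at h1
    have h2 : z ^ (l ^ n) = z ^ 1 := by rw [← h1, pow_one]
    have h3 := pow_eq_pow_iff_modEq.1 h2
    rwa [hoz] at h3
  have hnodvd : ∀ k : ℕ, k ^ n ≡ 1 [MOD p] → ¬ p ∣ k := by
    intro k hk hd
    have h1 : p ∣ k ^ n := dvd_pow hd (Nat.pos_iff_ne_zero.1 hn0)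
    have h2 : k ^ n % p = 1 % p := hk
    rw [Nat.mod_eq_zero_of_dvd h1, Nat.mod_eq_of_lt hp.out.one_lt] at h2
    exact zero_ne_one h2
  have hpl : ¬ p ∣ l := hnodvd l hln
  by_cases hA : ∀ w : W, w ∈ Subgroup.zpowers z
  · refine ⟨l, 1, ⟨hl, fun w => ?_⟩, hln, ?_, fermat l hpl, ?_⟩
    · have h1 : w⁻¹ * θ w ∈ Subgroup.zpowers z := hA _
      rw [← mem_powers_iff_mem_zpowers] at h1
      obtain ⟨a, ha⟩ := (Submonoid.mem_powers_iff _ _).1 h1
      refine ⟨a, ?_⟩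
      rw [pow_one, ha, mul_inv_cancel_left]
    · simp [Nat.ModEq]
    · simp [Nat.ModEq]
  · push Not at hA
    obtain ⟨e, he⟩ := hA
    obtain ⟨ν, m, hνm⟩ := MW.span_two hexp hcard hz he (θ e)
    have hT : Ty z θ l m := by
      refine ⟨hl, fun w => ?_⟩
      obtain ⟨i, j, hw⟩ := MW.span_two hexp hcard hz he w
      refine ⟨l * i + ν * j + (p - 1) * (i * m), ?_⟩
      have hp1 : z ^ ((p - 1) * (i * m)) = (z ^ (i * m))⁻¹ := by
        rw [eq_inv_iff_mul_eq_one, ← pow_add]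
        have e1 : (p - 1) * (i * m) + i * m = p * (i * m) := by
          have h5 := Nat.sub_add_cancel hp.out.one_lt.le
          calc (p - 1) * (i * m) + i * m = (p - 1 + 1) * (i * m) := by ring
            _ = p * (i * m) := by rw [h5]
        rw [e1, pow_mul, hexp, one_pow]
      have h3 : ∀ A B C D : W, A * (B * C) = D * C * (A * B * D⁻¹) := by
        intro A B C D
        have h4 : D * C * (A * B * D⁻¹) = A * (B * C) * (D * D⁻¹) := by ac_rfl
        rw [h4, mul_inv_cancel, mul_one]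
      rw [hw, map_mul, map_pow, map_pow, hl, hνm, pow_add, pow_add, hp1]
      simp only [mul_pow, ← pow_mul]
      rw [mul_comm j m]
      exact h3 _ _ _ _
    have hmn : m ^ n ≡ 1 [MOD p] := by
      obtain ⟨a, ha⟩ := (ty_pow hT n).2 e
      rw [hn, MulAut.one_apply] at ha
      rw [pow_eq_pow_mod (m ^ n) (hexp e)] at ha
      have hr : m ^ n % p < p := Nat.mod_lt _ hp.out.pos
      rcases Nat.eq_zero_or_pos (m ^ n % p) with h0 | hpos
      · rw [h0, pow_zero, one_mul] at ha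
        have h1 : e ∈ Subgroup.zpowers z := by
          rw [ha]
          exact Subgroup.pow_mem _ (Subgroup.mem_zpowers z) a
        exact absurd h1 he
      · have h1 : z ^ 0 * e ^ 1 = z ^ a * e ^ (m ^ n % p) := by
          rw [pow_zero, one_mul, pow_one, mul_comm]
          exact ha
        have h2 := MW.pow_eq_of_mul_eq (hexp e) he hr hpos h1
        show m ^ n % p = 1 % p
        rw [← h2, Nat.mod_eq_of_lt hp.out.one_lt]
    exact ⟨l, m, hT, hln, hmn, fermat l hpl, fermat m (hnodvd m hmn)⟩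

theorem core (hexp : ∀ a : W, a ^ p = 1) (hcard : Nat.card W ≤ p ^ 2) {z : W} (hz : z ≠ 1)
    {Γ : Type*} [Group Γ] (ψ : Γ →* MulAut W) (hinv : ∀ g : Γ, ψ g z ∈ Subgroup.zpowers z)
    {n : ℕ} (hn0 : 0 < n) (hn : ∀ g : Γ, g ^ n = 1) :
    (∀ g h : Γ, Unip z (ψ (g * h * g ^ (n - 1) * h ^ (n - 1)))) ∧
      ∀ g : Γ, Unip z (ψ (g ^ (p - 1))) := by
  have hty : ∀ g : Γ, ∃ l m : ℕ, Ty z (ψ g) l m ∧ l ^ n ≡ 1 [MOD p] ∧ m ^ n ≡ 1 [MOD p] ∧
      l ^ (p - 1) ≡ 1 [MOD p] ∧ m ^ (p - 1) ≡ 1 [MOD p] := fun g =>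
    exists_ty hexp hcard hz (ψ g) (hinv g) hn0 (by rw [← map_pow, hn, map_one])
  constructor
  · intro g h
    obtain ⟨l, m, hT, hl, hm, -, -⟩ := hty g
    obtain ⟨l', m', hT', hl', hm', -, -⟩ := hty h
    have h1 : Ty z (ψ (g * h * g ^ (n - 1) * h ^ (n - 1))) (l * l' * l ^ (n - 1) * l' ^ (n - 1))
        (m * m' * m ^ (n - 1) * m' ^ (n - 1)) := by
      rw [map_mul, map_mul, map_mul, map_pow, map_pow]
      exact ty_mul (ty_mul (ty_mul hT hT') (ty_pow hT _)) (ty_pow hT' _)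
    have harith : ∀ a b : ℕ, a ^ n ≡ 1 [MOD p] → b ^ n ≡ 1 [MOD p] →
        a * b * a ^ (n - 1) * b ^ (n - 1) ≡ 1 [MOD p] := by
      intro a b ha hb
      have e : a * b * a ^ (n - 1) * b ^ (n - 1) = a ^ (n - 1 + 1) * b ^ (n - 1 + 1) := by ring
      rw [e, Nat.sub_add_cancel hn0]
      simpa using ha.mul hb
    exact unip_of_ty hexp h1 (harith l l' hl hl') (harith m m' hm hm')
  · intro g
    obtain ⟨l, m, hT, -, -, hl, hm⟩ := hty g
    have h1 : Ty z (ψ (g ^ (p - 1))) (l ^ (p - 1)) (m ^ (p - 1)) := by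
      rw [map_pow]
      exact ty_pow hT _
    exact unip_of_ty hexp h1 hl hm

end Core

theorem core' {W : Type*} [Group W] [Finite W] {p : ℕ} [hp : Fact p.Prime]
    (hcomm : ∀ a b : W, a * b = b * a) (hexp : ∀ a : W, a ^ p = 1) (hcard : Nat.card W ≤ p ^ 2)
    {z : W} (hz : z ≠ 1)
    {Γ : Type*} [Group Γ] (ψ : Γ →* MulAut W) (hinv : ∀ g : Γ, ψ g z ∈ Subgroup.zpowers z)
    {n : ℕ} (hn0 : 0 < n) (hn : ∀ g : Γ, g ^ n = 1) :
    (∀ g h : Γ, (ψ (g * h * g ^ (n - 1) * h ^ (n - 1)) z = z ∧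
        ∀ w : W, ∃ a : ℕ, ψ (g * h * g ^ (n - 1) * h ^ (n - 1)) w = w * z ^ a)) ∧
      ∀ g : Γ, (ψ (g ^ (p - 1)) z = z ∧ ∀ w : W, ∃ a : ℕ, ψ (g ^ (p - 1)) w = w * z ^ a) := by
  letI : CommGroup W := { ‹Group W› with mul_comm := hcomm }
  exact core hexp hcard hz ψ hinv hn0 hn

theorem tri_aut {X : Type*} [Group X] [Finite X] (p : ℕ) [Fact p.Prime] (hX : IsPGroup p X)
    (hcard : Nat.card (X ⧸ frattini X) ≤ p ^ 2) (H : Subgroup (MulAut X))
    (hH : (Nat.card H).Coprime p) (z : X ⧸ frattini X) (hz : z ≠ 1)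
    (hinv : ∀ h ∈ H, Cfsg.Agent.H29.MW.frQuot X h z ∈ Subgroup.zpowers z) :
    IsMulCommutative H ∧ ∀ h ∈ H, h ^ (p - 1) = 1 := by
  classical
  have hpp := Fact.out (p := p.Prime)
  have hcomm : ∀ a b : X ⧸ frattini X, a * b = b * a := MW.frQuot_comm hX
  have hexp : ∀ a : X ⧸ frattini X, a ^ p = 1 := MW.frQuot_exp hX
  have hU : ∀ u ∈ H, (MW.frQuot X u z = z ∧ ∀ w, ∃ a : ℕ, MW.frQuot X u w = w * z ^ a) →
      u = 1 := by
    rintro u hu ⟨huz, huw⟩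
    have h1 : u ^ p ∈ (MW.frQuot X).ker := by
      rw [MonoidHom.mem_ker, map_pow]
      ext w
      obtain ⟨a, ha⟩ := huw w
      have h2 : ∀ n : ℕ, ((MW.frQuot X u) ^ n) w = w * z ^ (n * a) := by
        intro n
        induction n with
        | zero => simp
        | succ n ih =>
          rw [pow_succ', MulAut.mul_apply, ih, map_mul, map_pow, huz, ha, mul_assoc, ← pow_add]
          congr 2
          ring
      rw [h2 p, pow_mul, hexp z, one_pow, mul_one]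
      rfl
    obtain ⟨k, hk⟩ := (MW.frQuot_ker_isPGroup hX) ⟨u ^ p, h1⟩
    have hk' : u ^ p ^ (k + 1) = 1 := by
      have h3 := congrArg Subtype.val hk
      rw [pow_succ', pow_mul]
      simpa using h3
    have hcardH : u ^ Nat.card H = 1 := by
      have h3 : (⟨u, hu⟩ : H) ^ Nat.card H = 1 := pow_card_eq_one'
      have h4 : (((⟨u, hu⟩ : H) ^ Nat.card H : H) : MulAut X) = ((1 : H) : MulAut X) := by
        rw [h3]
      rwa [Subgroup.coe_pow, Subgroup.coe_one] at h4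
    have h3 : orderOf u ∣ Nat.gcd (Nat.card H) (p ^ (k + 1)) :=
      Nat.dvd_gcd (orderOf_dvd_of_pow_eq_one hcardH) (orderOf_dvd_of_pow_eq_one hk')
    have h4 : Nat.gcd (Nat.card H) (p ^ (k + 1)) = 1 := Nat.Coprime.pow_right _ hH
    rw [h4, Nat.dvd_one, orderOf_eq_one_iff] at h3
    exact h3
  have hn0 : 0 < Nat.card H := by
    rcases Nat.eq_zero_or_pos (Nat.card H) with h0 | h0
    · rw [h0, Nat.coprime_zero_left] at hH
      exact absurd hH hpp.one_lt.ne'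
    · exact h0
  have hn : ∀ g : H, g ^ Nat.card H = 1 := fun g => pow_card_eq_one'
  obtain ⟨hc1, hc2⟩ := core' hcomm hexp hcard hz ((MW.frQuot X).comp H.subtype)
    (fun g => hinv g.1 g.2) hn0 hn
  constructor
  · refine ⟨⟨fun g h => ?_⟩⟩
    have h5 : ((g * h * g ^ (Nat.card H - 1) * h ^ (Nat.card H - 1) : H) : MulAut X) = 1 :=
      hU _ (g * h * g ^ (Nat.card H - 1) * h ^ (Nat.card H - 1) : H).2 (hc1 g h)
    have h6 : g * h * g ^ (Nat.card H - 1) * h ^ (Nat.card H - 1) = 1 := Subtype.ext h5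
    have hg : ∀ x : H, x ^ (Nat.card H - 1) = x⁻¹ := by
      intro x
      rw [eq_inv_iff_mul_eq_one, ← pow_succ, Nat.sub_add_cancel hn0, hn]
    rw [hg, hg] at h6
    have h7 := congrArg (· * (h * g)) h6
    simpa [mul_assoc] using h7
  · intro h hh
    have h5 : (((⟨h, hh⟩ : H) ^ (p - 1) : H) : MulAut X) = 1 :=
      hU _ ((⟨h, hh⟩ : H) ^ (p - 1)).2 (hc2 ⟨h, hh⟩)
    simpa using h5

end Cfsg.Agent.Helper55.TriAut

section Check

example {X : Type*} [Group X] [Finite X] (p : ℕ) [Fact p.Prime] (hX : IsPGroup p X) (hcard : Nat.card (X ⧸ frattini X) ≤ p ^ 2) (H : Subgroup (MulAut X)) (hH : (Nat.card H).Coprime p) (z : X ⧸ frattini X) (hz : z ≠ 1) (hinv : ∀ h ∈ H, Cfsg.Agent.H29.MW.frQuot X h z ∈ Subgroup.zpowers z) : IsMulCommutative H ∧ ∀ h ∈ H, h ^ (p - 1) = 1 :=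
  Cfsg.Agent.Helper55.TriAut.tri_aut p hX hcard H hH z hz hinv

end Check
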