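import Cfsg.Agent.H7.RVDefs

/-!
# S3626 team project (helper7): piece RV-AFF

In a semidirect product `N ⋊ Q` with `N` abelian of exponent 3: an element whose `Q`-part `a`
acts without non-trivial fixed points has the order of `a`; in general its order divides
`3 · o(a)`.
-/

set_option autoImplicit false

namespace Cfsg.Agent.Helper55.RV

open Cfsg.Agent.H7.RV

/-- If the right component of `x ^ n` is trivial then `x ^ n` lies in the normal factor. -/
theorem pow_eq_inl {N : Type} [Group N] {Q : Type} [Group Q] {φ : Q →* MulAut N}
    (x : N ⋊[φ] Q) (n : ℕ) (hn : x.right ^ n = 1) :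
    x ^ n = SemidirectProduct.inl (x ^ n).left := by
  have hr : (x ^ n).right = x.right ^ n := by
    have := map_pow (SemidirectProduct.rightHom : N ⋊[φ] Q →* Q) x n
    simpa using this
  apply SemidirectProduct.ext
  · rw [SemidirectProduct.left_inl]
  · rw [SemidirectProduct.right_inl, hr, hn]

/-- RV-AFF. -/
theorem aff : StAff := by
  intro N _ Q _ φ h3 x
  constructor
  · intro n hfix hn
    have h1 := pow_eq_inl x n hn
    have hcomm : x * x ^ n = x ^ n * x := (pow_mul_comm' x n).symm
    have h2 := congrArg SemidirectProduct.left hcomm
    rw [SemidirectProduct.mul_left, SemidirectProduct.mul_left] at h2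
    have hr : (x ^ n).right = 1 := by
      rw [h1, SemidirectProduct.right_inl]
    rw [hr, map_one, MulAut.one_apply, mul_comm (x ^ n).left x.left] at h2
    have h4 : φ x.right (x ^ n).left = (x ^ n).left := mul_left_cancel h2
    have hw := hfix _ h4
    rw [h1, hw, map_one]
  · intro j hj
    have h1 := pow_eq_inl x j hj
    rw [mul_comm 3 j, pow_mul, h1, ← map_pow, h3, map_one]

example : StAff := aff

end Cfsg.Agent.Helper55.RV
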