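import Cfsg.Agent.H7.RVDefs

/-!
# S3626 team project (helper7): piece RV-PROD

If the element orders of `L₀` and of `L` are the divisors of `6, 9, a, b, c, d` and those of `M`
are the divisors of `6, 9, a, b`, then `L₀ × L₀ × M` and `L × L × L` have the same element orders.
-/

set_option autoImplicit false

namespace Cfsg.Agent.Helper55.RV

open Cfsg.Agent.H7.RV

universe u v w

/-- The order of a triple. -/
theorem orderOf_triple {A : Type u} {B : Type v} {C : Type w} [Monoid A] [Monoid B] [Monoid C]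
    (x : A) (y : B) (z : C) :
    orderOf (x, y, z) = Nat.lcm (orderOf x) (Nat.lcm (orderOf y) (orderOf z)) := by
  rw [Prod.orderOf, Prod.orderOf]

/-- The combinatorial core: three "orders of `L`" can be rearranged into two orders of `L` and
one order of `M` with the same `lcm`. -/
theorem prod_aux (P PM : ℕ → Prop) (c d : ℕ) (hP : ∀ n, P n ↔ PM n ∨ n ∣ c ∨ n ∣ d)
    (hPM1 : PM 1) (n1 n2 n3 : ℕ) (h1 : P n1) (h2 : P n2) (h3 : P n3) :
    ∃ m1 m2 m3, P m1 ∧ P m2 ∧ PM m3 ∧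
      Nat.lcm m1 (Nat.lcm m2 m3) = Nat.lcm n1 (Nat.lcm n2 n3) := by
  by_cases g3 : PM n3
  · exact ⟨n1, n2, n3, h1, h2, g3, rfl⟩
  by_cases g1 : PM n1
  · refine ⟨n2, n3, n1, h2, h3, g1, ?_⟩
    rw [Nat.lcm_comm n3 n1, ← Nat.lcm_assoc, Nat.lcm_comm n2 n1, Nat.lcm_assoc]
  by_cases g2 : PM n2
  · refine ⟨n1, n3, n2, h1, h3, g2, ?_⟩
    rw [Nat.lcm_comm n3 n2]
  have e1 : n1 ∣ c ∨ n1 ∣ d := ((hP n1).mp h1).resolve_left g1
  have e2 : n2 ∣ c ∨ n2 ∣ d := ((hP n2).mp h2).resolve_left g2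
  have e3 : n3 ∣ c ∨ n3 ∣ d := ((hP n3).mp h3).resolve_left g3
  -- two of the three divide the same one of `c`, `d`
  have hpair : (Nat.lcm n1 n2 ∣ c ∨ Nat.lcm n1 n2 ∣ d) ∨ (Nat.lcm n1 n3 ∣ c ∨ Nat.lcm n1 n3 ∣ d)
      ∨ (Nat.lcm n2 n3 ∣ c ∨ Nat.lcm n2 n3 ∣ d) := by
    rcases e1 with e1 | e1 <;> rcases e2 with e2 | e2 <;> rcases e3 with e3 | e3
    · exact Or.inl (Or.inl (Nat.lcm_dvd e1 e2))
    · exact Or.inl (Or.inl (Nat.lcm_dvd e1 e2))
    · exact Or.inr (Or.inl (Or.inl (Nat.lcm_dvd e1 e3)))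
    · exact Or.inr (Or.inr (Or.inr (Nat.lcm_dvd e2 e3)))
    · exact Or.inr (Or.inr (Or.inl (Nat.lcm_dvd e2 e3)))
    · exact Or.inr (Or.inl (Or.inr (Nat.lcm_dvd e1 e3)))
    · exact Or.inl (Or.inr (Nat.lcm_dvd e1 e2))
    · exact Or.inl (Or.inr (Nat.lcm_dvd e1 e2))
  rcases hpair with h | h | h
  · refine ⟨Nat.lcm n1 n2, n3, 1, (hP _).mpr (Or.inr h), h3, hPM1, ?_⟩
    rw [Nat.lcm_one_right, Nat.lcm_assoc]
  · refine ⟨Nat.lcm n1 n3, n2, 1, (hP _).mpr (Or.inr h), h2, hPM1, ?_⟩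
    rw [Nat.lcm_one_right, Nat.lcm_assoc, Nat.lcm_comm n3 n2]
  · refine ⟨Nat.lcm n2 n3, n1, 1, (hP _).mpr (Or.inr h), h1, hPM1, ?_⟩
    rw [Nat.lcm_one_right, Nat.lcm_comm]

/-- RV-PROD. -/
theorem prod : StProd.{u} := by
  intro L₀ _ M _ L _ a b c d h0 hL hM
  ext n
  simp only [Set.mem_range]
  constructor
  · rintro ⟨⟨x, y, z⟩, rfl⟩
    have h1 := (h0 _).mp ⟨x, rfl⟩
    have h2 := (h0 _).mp ⟨y, rfl⟩
    have h3 : orderOf z ∣ 6 ∨ orderOf z ∣ 9 ∨ orderOf z ∣ a ∨ orderOf z ∣ b ∨ orderOf z ∣ c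
        ∨ orderOf z ∣ d := by
      rcases (hM _).mp ⟨z, rfl⟩ with h | h | h | h
      · exact Or.inl h
      · exact Or.inr (Or.inl h)
      · exact Or.inr (Or.inr (Or.inl h))
      · exact Or.inr (Or.inr (Or.inr (Or.inl h)))
    obtain ⟨x', hx'⟩ := (hL _).mpr h1
    obtain ⟨y', hy'⟩ := (hL _).mpr h2
    obtain ⟨z', hz'⟩ := (hL _).mpr h3
    refine ⟨(x', y', z'), ?_⟩
    rw [orderOf_triple, orderOf_triple, hx', hy', hz']
  · rintro ⟨⟨x, y, z⟩, rfl⟩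
    have h1 := (hL _).mp ⟨x, rfl⟩
    have h2 := (hL _).mp ⟨y, rfl⟩
    have h3 := (hL _).mp ⟨z, rfl⟩
    obtain ⟨m1, m2, m3, g1, g2, g3, hlcm⟩ := prod_aux
      (fun n => n ∣ 6 ∨ n ∣ 9 ∨ n ∣ a ∨ n ∣ b ∨ n ∣ c ∨ n ∣ d)
      (fun n => n ∣ 6 ∨ n ∣ 9 ∨ n ∣ a ∨ n ∣ b) c d
      (fun n => by
        constructor
        · rintro (h | h | h | h | h | h)
          · exact Or.inl (Or.inl h)
          · exact Or.inl (Or.inr (Or.inl h))
          · exact Or.inl (Or.inr (Or.inr (Or.inl h)))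
          · exact Or.inl (Or.inr (Or.inr (Or.inr h)))
          · exact Or.inr (Or.inl h)
          · exact Or.inr (Or.inr h)
        · rintro ((h | h | h | h) | h | h)
          · exact Or.inl h
          · exact Or.inr (Or.inl h)
          · exact Or.inr (Or.inr (Or.inl h))
          · exact Or.inr (Or.inr (Or.inr (Or.inl h)))
          · exact Or.inr (Or.inr (Or.inr (Or.inr (Or.inl h))))
          · exact Or.inr (Or.inr (Or.inr (Or.inr (Or.inr h)))))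
      (Or.inl (one_dvd _)) _ _ _ h1 h2 h3
    obtain ⟨x', hx'⟩ := (h0 _).mpr g1
    obtain ⟨y', hy'⟩ := (h0 _).mpr g2
    obtain ⟨z', hz'⟩ := (hM _).mpr g3
    refine ⟨(x', y', z'), ?_⟩
    rw [orderOf_triple, orderOf_triple, hx', hy', hz', hlcm]

example : StProd.{u} := prod

end Cfsg.Agent.Helper55.RV
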