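import Cfsg.Agent.H7.RVDefs

/-!
# S3626 team project (helper7): piece RV-SPEC

The element orders of `M_k` are exactly the divisors of `6`, `9`, `q - 1`, `(q + 1)/2`.
-/

set_option autoImplicit false

namespace Cfsg.Agent.Helper55.RV

open Cfsg.Agent.H7.RV

universe u

/-- If `y` has order `N ≠ 0` and `n ∣ N` then some power of `y` has order `n`. -/
theorem exists_orderOf_eq_of_dvd {G : Type u} [Monoid G] (y : G) (N n : ℕ) (hy : orderOf y = N)
    (hN : N ≠ 0) (hn : n ∣ N) : ∃ x : G, orderOf x = n := by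
  obtain ⟨c, hc⟩ := hn
  have hc0 : c ≠ 0 := by
    rintro rfl
    exact hN (by rw [hc, mul_zero])
  refine ⟨y ^ c, ?_⟩
  rw [orderOf_pow_of_dvd hc0 (by rw [hy, hc]; exact dvd_mul_left c n), hy, hc]
  exact Nat.mul_div_cancel n (Nat.pos_of_ne_zero hc0)

/-- RV-SPEC. -/
theorem spec (hUp : StUp) (h6 : StEx6) (h9 : StEx9) (hA : StExA) (hB : StExB) : StSpec := by
  intro F _ _ _ m k hq hk n
  have h3 : 3 ≤ 3 ^ (2 * m + 1) := by
    calc 3 = 3 ^ 1 := by norm_num
      _ ≤ 3 ^ (2 * m + 1) := Nat.pow_le_pow_right (by norm_num) (by omega)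
  constructor
  · rintro ⟨x, rfl⟩
    rcases hUp F m k hq x with h | h | h | h
    · exact Or.inl (orderOf_dvd_of_pow_eq_one h)
    · exact Or.inr (Or.inl (orderOf_dvd_of_pow_eq_one h))
    · exact Or.inr (Or.inr (Or.inl (orderOf_dvd_of_pow_eq_one h)))
    · exact Or.inr (Or.inr (Or.inr (orderOf_dvd_of_pow_eq_one h)))
  · rintro (h | h | h | h)
    · obtain ⟨y, hy⟩ := h6 F k hk
      exact exists_orderOf_eq_of_dvd y 6 n hy (by norm_num) h
    · obtain ⟨y, hy⟩ := h9 F k hk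
      exact exists_orderOf_eq_of_dvd y 9 n hy (by norm_num) h
    · obtain ⟨y, hy⟩ := hA F m k hq hk
      exact exists_orderOf_eq_of_dvd y _ n hy (by omega) h
    · obtain ⟨y, hy⟩ := hB F m k hq hk
      exact exists_orderOf_eq_of_dvd y _ n hy (by omega) h

example (hUp : StUp) (h6 : StEx6) (h9 : StEx9) (hA : StExA) (hB : StExB) : StSpec :=
  spec hUp h6 h9 hA hB

end Cfsg.Agent.Helper55.RV
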