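import Cfsg.Agent.H74.BTDefs
import Cfsg.Agent.H82.Irr
import Cfsg.Agent.H16.BRCol
import Cfsg.Agent.H69.BrCCP

/-!
# S0997-B1CLASS (piece of helper74's team project)

Case B1: every involution is conjugate to the involution `τ₀` inverting `P`.
-/

set_option autoImplicit false

namespace Cfsg.Agent.Helper55.BT

open Cfsg Cfsg.Agent.H21.BR Cfsg.Agent.H74.BT
open scoped ComplexConjugate

universe u

/-- Group-theoretic part: if a conjugate of the involution `z` times a conjugate of `τ₀` is a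
nontrivial element of `P`, then `z` is conjugate to `τ₀`. -/
theorem conj_of_prod {G : Type u} [Group G] [Finite G] (p : ℕ) [Fact p.Prime] (hp2 : p ≠ 2)
    (P : Subgroup G) (hP : Nat.card P = p) (hC : Subgroup.centralizer (P : Set G) = P)
    (τ₀ : G) (hτ : orderOf τ₀ = 2) (hinv : ∀ x ∈ P, τ₀ * x * τ₀⁻¹ = x⁻¹)
    (z : G) (hz : orderOf z = 2) (x : G) (hxP : x ∈ P) (hx1 : x ≠ 1)
    (a b : G) (hab : a * z * a⁻¹ * (b * τ₀ * b⁻¹) = x) : ∃ g : G, g * τ₀ * g⁻¹ = z := by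
  have hp : p.Prime := Fact.out
  have hzz : z * z = 1 := by
    have := pow_orderOf_eq_one z
    rw [hz, pow_two] at this
    exact this
  have hττ : τ₀ * τ₀ = 1 := by
    have := pow_orderOf_eq_one τ₀
    rw [hτ, pow_two] at this
    exact this
  have hτinv : τ₀⁻¹ = τ₀ := inv_eq_of_mul_eq_one_left hττ
  have huu : (a * z * a⁻¹) * (a * z * a⁻¹) = 1 := by
    have : (a * z * a⁻¹) * (a * z * a⁻¹) = a * (z * z) * a⁻¹ := by group
    rw [this, hzz]; group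
  have hvv : (b * τ₀ * b⁻¹) * (b * τ₀ * b⁻¹) = 1 := by
    have : (b * τ₀ * b⁻¹) * (b * τ₀ * b⁻¹) = b * (τ₀ * τ₀) * b⁻¹ := by group
    rw [this, hττ]; group
  obtain ⟨u, hu⟩ : ∃ u : G, u = a * z * a⁻¹ := ⟨_, rfl⟩
  obtain ⟨v, hv⟩ : ∃ v : G, v = b * τ₀ * b⁻¹ := ⟨_, rfl⟩
  rw [← hu] at huu hab
  rw [← hv] at hvv hab
  have huinv : u⁻¹ = u := inv_eq_of_mul_eq_one_left huu
  have hvinv : v⁻¹ = v := inv_eq_of_mul_eq_one_left hvv
  -- u inverts x
  have hux : u * x * u⁻¹ = x⁻¹ := by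
    rw [← hab, huinv, mul_inv_rev, huinv, hvinv]
    calc u * (u * v) * u = (u * u) * v * u := by group
      _ = v * u := by rw [huu, one_mul]
  -- P is generated by x
  have hgen : ∀ y ∈ P, ∃ k : ℤ, x ^ k = y := by
    intro y hy
    have hx1' : (⟨x, hxP⟩ : ↥P) ≠ 1 := fun h => hx1 (congrArg Subtype.val h)
    have hmem : (⟨y, hy⟩ : ↥P) ∈ Subgroup.zpowers (⟨x, hxP⟩ : ↥P) :=
      mem_zpowers_of_prime_card hP hx1'
    obtain ⟨k, hk⟩ := Subgroup.mem_zpowers_iff.mp hmem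
    exact ⟨k, by simpa using congrArg Subtype.val hk⟩
  -- u inverts P
  have huP : ∀ y ∈ P, u * y * u⁻¹ = y⁻¹ := by
    intro y hy
    obtain ⟨k, rfl⟩ := hgen y hy
    rw [← conj_zpow, hux, inv_zpow]
  -- u * τ₀ centralizes P, so lies in P
  have hy0 : u * τ₀ ∈ P := by
    rw [← hC, Subgroup.mem_centralizer_iff]
    intro y hy
    have h1 : τ₀ * y = y⁻¹ * τ₀ := by
      have := hinv y hy
      calc τ₀ * y = (τ₀ * y * τ₀⁻¹) * τ₀ := by group
        _ = y⁻¹ * τ₀ := by rw [this]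
    have h2 : u * y⁻¹ = y * u := by
      have := huP y⁻¹ (P.inv_mem hy)
      rw [inv_inv] at this
      calc u * y⁻¹ = (u * y⁻¹ * u⁻¹) * u := by group
        _ = y * u := by rw [this]
    calc y * (u * τ₀) = (y * u) * τ₀ := by group
      _ = (u * y⁻¹) * τ₀ := by rw [h2]
      _ = u * (y⁻¹ * τ₀) := by group
      _ = u * (τ₀ * y) := by rw [h1]
      _ = u * τ₀ * y := by group
  -- square root in P
  have hy0p : (u * τ₀) ^ p = 1 := by
    have h := pow_card_eq_one' (G := ↥P) (x := ⟨u * τ₀, hy0⟩)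
    rw [hP] at h
    have := congrArg Subtype.val h
    simpa using this
  have hodd : p % 2 = 1 := by
    rcases hp.eq_two_or_odd with h | h
    · exact absurd h hp2
    · exact h
  obtain ⟨w, hw⟩ : ∃ w : G, w = (u * τ₀) ^ ((p + 1) / 2) := ⟨_, rfl⟩
  have hwP : w ∈ P := by rw [hw]; exact P.pow_mem hy0 _
  have hww : w * w = u * τ₀ := by
    rw [hw, ← pow_add]
    have : (p + 1) / 2 + (p + 1) / 2 = p + 1 := by omega
    rw [this, pow_succ, hy0p, one_mul]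
  have hτw : τ₀ * w⁻¹ = w * τ₀ := by
    have := hinv w⁻¹ (P.inv_mem hwP)
    rw [inv_inv] at this
    calc τ₀ * w⁻¹ = (τ₀ * w⁻¹ * τ₀⁻¹) * τ₀ := by group
      _ = w * τ₀ := by rw [this]
  have hwτ : w * τ₀ * w⁻¹ = u := by
    calc w * τ₀ * w⁻¹ = w * (τ₀ * w⁻¹) := by group
      _ = w * (w * τ₀) := by rw [hτw]
      _ = (w * w) * τ₀ := by group
      _ = u * τ₀ * τ₀ := by rw [hww]
      _ = u * (τ₀ * τ₀) := by group
      _ = u := by rw [hττ, mul_one]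
  refine ⟨a⁻¹ * w, ?_⟩
  calc a⁻¹ * w * τ₀ * (a⁻¹ * w)⁻¹ = a⁻¹ * (w * τ₀ * w⁻¹) * a := by group
    _ = a⁻¹ * (a * z * a⁻¹) * a := by rw [hwτ, hu]
    _ = z := by group

theorem b1Class : StB1Class.{u} := by
  intro G _ _ p _ P hP hC X Y δ hB hdegY hsumY hfaith τ₀ hτ hinv hX0 hYτ z hz
  classical
  by_contra hcon
  push Not at hcon
  have hp : p.Prime := Fact.out
  have hcY := hB.cardY
  have hp3 : 3 ≤ p := by
    have := hp.two_le
    by_contra hlt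
    have h2 : p = 2 := by omega
    subst h2
    omega
  have hp2 : p ≠ 2 := by omega
  have hYne : Y.Nonempty := by
    rw [← Finset.card_pos]; omega
  obtain ⟨θ₀, hθ₀⟩ := hYne
  obtain ⟨x, hxP, hx1⟩ : ∃ x ∈ (P : Subgroup G), x ≠ 1 := by
    rcases Subgroup.bot_or_exists_ne_one (P : Subgroup G) with h | h
    · exfalso
      rw [h, Subgroup.card_bot] at hP
      omega
    · exact h
  have hempty : Nat.card {ab : G × G // ab.1 * z * ab.1⁻¹ * (ab.2 * τ₀ * ab.2⁻¹) = x} = 0 := by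
    rw [Nat.card_eq_zero]
    left
    constructor
    rintro ⟨⟨a, b⟩, hab⟩
    obtain ⟨g, hg⟩ := conj_of_prod p hp2 (P : Subgroup G) hP hC τ₀ hτ hinv z hz x hxP hx1 a b hab
    exact hcon g hg
  have hccp := Cfsg.Agent.H69.Br.ccp z τ₀ x
  rw [hempty, Nat.cast_zero] at hccp
  have hG : (Nat.card G : ℂ) ≠ 0 := by exact_mod_cast Nat.card_pos.ne'
  have hsum0 : ∑ᶠ ψ : IrrCharacter G, ψ.1 z * ψ.1 τ₀ * conj (ψ.1 x) / ψ.1 1 = 0 := by
    rcases mul_eq_zero.mp hccp.symm with h | h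
    · exact absurd h hG
    · exact h
  letI := Cfsg.Agent.H4.fintypeIrr G
  have hsplit := Cfsg.Agent.H16.BR.sum_three hB
    (Finset.univ.filter (fun ψ : IrrCharacter G => ψ ∉ X ∧ ψ ∉ Y)) (by intro ψ; simp)
    (fun ψ : IrrCharacter G => ψ.1 z * ψ.1 τ₀ * conj (ψ.1 x) / ψ.1 1)
  rw [hsplit] at hsum0
  -- the Z-part vanishes
  have hZ : ∑ ψ ∈ Finset.univ.filter (fun ψ : IrrCharacter G => ψ ∉ X ∧ ψ ∉ Y),
      ψ.1 z * ψ.1 τ₀ * conj (ψ.1 x) / ψ.1 1 = 0 := by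
    apply Finset.sum_eq_zero
    intro ψ hψ
    rw [Finset.mem_filter] at hψ
    rw [hB.out_van ψ hψ.2.1 hψ.2.2 x hxP hx1]
    simp
  -- the X-part is 1
  have hone : ∀ g : G, (one G : G → ℂ) g = 1 := fun g => rfl
  have hXs : ∑ χ ∈ X, χ.1 z * χ.1 τ₀ * conj (χ.1 x) / χ.1 1 = 1 := by
    rw [← Finset.add_sum_erase X _ hB.one_mem]
    have h0 : ∑ χ ∈ X.erase (one G), χ.1 z * χ.1 τ₀ * conj (χ.1 x) / χ.1 1 = 0 := by
      apply Finset.sum_eq_zero
      intro χ hχ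
      rw [Finset.mem_erase] at hχ
      rw [hX0 χ hχ.2 hχ.1]
      simp
    rw [h0, add_zero]
    show (one G : G → ℂ) z * (one G : G → ℂ) τ₀ * conj ((one G : G → ℂ) x) / (one G : G → ℂ) 1 = 1
    rw [hone, hone, hone, hone]
    simp
  -- the Y-part
  have hzreg : ¬ p ∣ orderOf z := by
    rw [hz]; intro h; have := Nat.le_of_dvd (by norm_num) h; omega
  have hpne : ((p - 2 : ℕ) : ℂ) ≠ 0 := by
    have : p - 2 ≠ 0 := by omega
    exact_mod_cast this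
  have hYs : ∑ θ ∈ Y, θ.1 z * θ.1 τ₀ * conj (θ.1 x) / θ.1 1 =
      -(θ₀.1 z) / ((p - 2 : ℕ) : ℂ) := by
    have hterm : ∀ θ ∈ Y, θ.1 z * θ.1 τ₀ * conj (θ.1 x) / θ.1 1 =
        (-(θ₀.1 z) / ((p - 2 : ℕ) : ℂ)) * conj (θ.1 x) := by
      intro θ hθ
      rw [hB.agree_Y θ hθ θ₀ hθ₀ z hzreg, hYτ θ hθ, Cfsg.Agent.H82.irr_one_eq_charDegree θ,
        hdegY θ hθ]
      field_simp
    rw [Finset.sum_congr rfl hterm, ← Finset.mul_sum, ← map_sum, hsumY x hxP hx1, map_one, mul_one]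
  rw [hXs, hYs, hZ, add_zero] at hsum0
  have hval : θ₀.1 z = ((p - 2 : ℕ) : ℂ) := by
    field_simp at hsum0
    linear_combination -hsum0
  have hz1 : z = 1 := by
    apply hfaith θ₀ hθ₀ z
    rw [hval, Cfsg.Agent.H82.irr_one_eq_charDegree θ₀, hdegY θ₀ hθ₀]
  rw [hz1, orderOf_one] at hz
  omega

example : Cfsg.Agent.H74.BT.StB1Class.{u} := b1Class

end Cfsg.Agent.Helper55.BT
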