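import Cfsg.Agent.H74.BTDefs
import Cfsg.Agent.H82.Irr
import Cfsg.Agent.H4.Irr
import Cfsg.Agent.H62.BRTBDih

/-!
# S0997-B1TAU (piece of helper74's team project)

Case B1 (`e = 2`, sign `-1`, exceptional degree `p - 2`): the values of the characters of the
principal block at an involution `τ₀` inverting `P`.
-/

set_option autoImplicit false

namespace Cfsg.Agent.Helper55.BT

open Cfsg Cfsg.Agent.H21.BR Cfsg.Agent.H74.BT
open scoped ComplexConjugate

universe u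

theorem b1Tau : StB1Tau.{u} := by
  intro G _ _ p _ P hP X Y δ hB hdegY τ₀ hτ hinv
  classical
  have hp : p.Prime := Fact.out
  have hcY := hB.cardY
  have hp3 : 3 ≤ p := by
    have := hp.two_le
    by_contra hlt
    have h2 : p = 2 := by omega
    subst h2
    omega
  have hp2 : p ≠ 2 := by omega
  have hYne : Y.Nonempty := by
    rw [← Finset.card_pos]; omega
  obtain ⟨θ₀, hθ₀⟩ := hYne
  -- X = {one, χ₀}
  have hX2 := hB.cardX
  have hXerase : (X.erase (one G)).card = 1 := by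
    rw [Finset.card_erase_of_mem hB.one_mem, hX2]
  obtain ⟨χ₀, hχ₀⟩ := Finset.card_eq_one.mp hXerase
  have hχ₀mem : χ₀ ∈ X.erase (one G) := by rw [hχ₀]; exact Finset.mem_singleton_self _
  have hχ₀X : χ₀ ∈ X := Finset.mem_of_mem_erase hχ₀mem
  have hχ₀ne : χ₀ ≠ one G := Finset.ne_of_mem_erase hχ₀mem
  have hsumX : ∀ F : IrrCharacter G → ℂ, ∑ χ ∈ X, F χ = F (one G) + F χ₀ := by
    intro F
    rw [← Finset.insert_erase hB.one_mem, Finset.sum_insert (Finset.notMem_erase _ _), hχ₀,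
      Finset.sum_singleton]
  have h1ord : ¬ p ∣ orderOf (1 : G) := by
    rw [orderOf_one]; intro h; have := Nat.le_of_dvd one_pos h; omega
  have hrel1 := hB.rel θ₀ hθ₀ 1 h1ord
  rw [hsumX, hB.δ_one] at hrel1
  have hθ1 : (θ₀ : G → ℂ) 1 = ((p - 2 : ℕ) : ℂ) := by
    rw [Cfsg.Agent.H82.irr_one_eq_charDegree, hdegY θ₀ hθ₀]
  have hχ1 : (χ₀ : G → ℂ) 1 = (charDegree (χ₀ : G → ℂ) : ℂ) :=
    Cfsg.Agent.H82.irr_one_eq_charDegree χ₀
  have hone1 : ∀ g : G, (one G : G → ℂ) g = 1 := fun g => rfl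
  have hdeg2 := hB.two_le_X χ₀ hχ₀X hχ₀ne
  have hδ : δ χ₀ = -1 ∧ charDegree (χ₀ : G → ℂ) = p - 1 := by
    rw [hθ1, hχ1, hone1] at hrel1
    have hint : (-1 : ℤ) * ((p - 2 : ℕ) : ℤ) =
        (1 : ℤ) * 1 + δ χ₀ * (charDegree (χ₀ : G → ℂ) : ℤ) := by
      exact_mod_cast hrel1
    rcases hB.δ_pm χ₀ hχ₀X with h | h
    · rw [h] at hint; exfalso; omega
    · refine ⟨h, ?_⟩; rw [h] at hint; omega
  obtain ⟨hδχ, hdegχ⟩ := hδ
  -- the sum of χ₀ over P vanishes
  have hsumP : ∑ᶠ x : ↥P, (χ₀ : G → ℂ) (x : G) = 0 := by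
    haveI : Fintype P := Fintype.ofFinite P
    rw [finsum_eq_sum_of_fintype]
    have hval : ∀ x : ↥P, (χ₀ : G → ℂ) (x : G) = (-1 : ℂ) + (if x = 1 then (p : ℂ) else 0) := by
      intro x
      by_cases hx : x = 1
      · subst hx
        rw [if_pos rfl, Subgroup.coe_one, hχ1, hdegχ]
        push_cast [Nat.cast_sub (by omega : 1 ≤ p)]
        ring
      · rw [if_neg hx, add_zero, hB.val_X χ₀ hχ₀X x x.2 (fun h => hx (Subtype.ext h)), hδχ]
        norm_num
    rw [Finset.sum_congr rfl (fun x _ => hval x), Finset.sum_add_distrib, Finset.sum_const,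
      Finset.sum_ite_eq', if_pos (Finset.mem_univ _), Finset.card_univ,
      ← Nat.card_eq_fintype_card, hP]
    simp
  obtain ⟨w, s, hs, hw, hsw⟩ := Cfsg.Agent.H62.BR.dihedral_bound p hp2 P hP τ₀ hτ hinv
    (χ₀ : G → ℂ) (Cfsg.Agent.H4.isCharacter_of_isIrrCharacter χ₀.2)
  rw [hsumP] at hw
  have hw0 : w = 0 := by
    rcases mul_eq_zero.mp hw.symm with h | h
    · exfalso; exact hp.ne_zero (by exact_mod_cast h)
    · exact_mod_cast h
  have hs0 : s = 0 := by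
    rw [hw0] at hsw
    have : |s| ≤ 0 := by simpa using hsw
    exact abs_nonpos_iff.mp this
  have hχτ : (χ₀ : G → ℂ) τ₀ = 0 := by rw [hs, hs0]; simp
  have hX0 : ∀ χ ∈ X, χ ≠ one G → (χ : G → ℂ) τ₀ = 0 := by
    intro χ hχ hne
    have hmem : χ ∈ X.erase (one G) := Finset.mem_erase.mpr ⟨hne, hχ⟩
    rw [hχ₀, Finset.mem_singleton] at hmem
    rw [hmem]; exact hχτ
  refine ⟨hX0, ?_⟩
  intro θ hθ
  have hτord : ¬ p ∣ orderOf τ₀ := by
    rw [hτ]; intro h; have := Nat.le_of_dvd (by norm_num) h; omega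
  have hrel := hB.rel θ hθ τ₀ hτord
  rw [hsumX, hB.δ_one, hχτ, hone1] at hrel
  push_cast at hrel
  linear_combination -hrel

example : Cfsg.Agent.H74.BT.StB1Tau.{u} := b1Tau

end Cfsg.Agent.Helper55.BT
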