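import Cfsg.Agent.H74.BTDefs
import Cfsg.Agent.H82.Irr

/-!
# S0997-B2REAL (piece of helper74's team project)

The exceptional characters are real on `P` and `2 θ₁ θ₂ = -e` on `P ∖ 1`.
-/

set_option autoImplicit false

namespace Cfsg.Agent.Helper55.BT

open Cfsg Cfsg.Agent.H21.BR Cfsg.Agent.H74.BT
open scoped ComplexConjugate

universe u

/-- An irreducible character is real on a subgroup inverted by some element. -/
theorem irr_real_of_inverted {G : Type u} [Group G] [Finite G] (θ : IrrCharacter G) (P : Subgroup G)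
    (τ₀ : G) (hinv : ∀ x ∈ P, τ₀ * x * τ₀⁻¹ = x⁻¹) (x : G) (hx : x ∈ P) :
    conj ((θ : G → ℂ) x) = (θ : G → ℂ) x := by
  have h1 := Cfsg.Agent.H82.irr_conj θ x τ₀
  rw [hinv x hx] at h1
  have h2 := Cfsg.Agent.H82.irr_inv θ x
  rw [← h2]
  exact h1

theorem b2Real : StB2Real.{u} := by
  intro G _ _ e P θ₁ θ₂ hsum hnorm τ₀ hinv
  refine ⟨irr_real_of_inverted θ₁ P τ₀ hinv, irr_real_of_inverted θ₂ P τ₀ hinv, ?_⟩
  intro x hx hx1
  have h1 := hsum x hx hx1
  have h2 := hnorm x hx hx1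
  rw [irr_real_of_inverted θ₁ P τ₀ hinv x hx, irr_real_of_inverted θ₂ P τ₀ hinv x hx] at h2
  linear_combination h1 * ((θ₁ : G → ℂ) x + (θ₂ : G → ℂ) x + 1) - h2

example : Cfsg.Agent.H74.BT.StB2Real.{u} := b2Real

end Cfsg.Agent.Helper55.BT
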