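import Mathlib
import Cfsg.Agent.Helper55.BaerT11
import Cfsg.Agent.H64.BaerT5
import Cfsg.Agent.H64.BaerT6
import Cfsg.Agent.H7.BaerT8
import Cfsg.Agent.H7.BaerT9
import Cfsg.Agent.H67.BaerT10

/-!
# S4125 team project, piece T11 (helper55): `MC.solvable_two` with the landed pieces plugged in
-/

set_option autoImplicit false

namespace Cfsg.Agent.Helper55.Baer

open Cfsg.Agent.H72.BaerT

universe u

/-- T11: `p = 2`, Sylow `2`-subgroup `P` of `A` noncyclic. -/
theorem MC.solvable_two {q : ℕ} {V : Type u} [CommGroup V] [Finite V]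
    {A P : Subgroup (MulAut V)} (h : MC 2 q V A P) (hnc : ¬ IsCyclic P) :
    Group.IsSolvable A :=
  solvable_two_core h hnc
    (fun hι W a b c d => Cfsg.Agent.H64.Baer.MC.solvable_of_blocks h hι W a b c d)
    (fun E a b c => Cfsg.Agent.H64.Baer.MC.solvable_of_elem h E a b c)
    (fun hq2 hexp c b m e a1 a2 a3 a4 a5 a6 =>
      Cfsg.Agent.H7.Baer.card_dvd_sq_of_irr q h.th.hq hq2 hexp c b m e a1 a2 a3 a4 a5 a6)
    (fun hexp hc => Cfsg.Agent.H7.Baer.TH.solvable_of_card_dvd_sq h.th hexp hc)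
    (fun hE => Cfsg.Agent.H67.Baer.exists_cyclic_max h.syl.2.1 hnc hE)

end Cfsg.Agent.Helper55.Baer
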