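import Mathlib
import Cfsg.Prelude.Def_Local

/-!
# A `p`-solvable group cannot have the two "conjugate difference" properties (helper55)

`ConjDiff p q G`: every non-identity `q`-element `z` has two conjugates `g`, `h` with `g * h⁻¹` a
non-identity `p`-element.  In a normal subgroup whose order is divisible by `q` but not by `p` this
is impossible; the first non-`{p,q}'` term of a `p`-series is such a subgroup for `(p,q)` or
`(q,p)`.
-/

set_option autoImplicit false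

namespace Cfsg.Agent.Helper55

open Cfsg

/-- every non-identity `q`-element has two conjugates whose quotient is a non-identity
`p`-element. -/
def ConjDiff (p q : ℕ) (G : Type*) [Group G] : Prop :=
  ∀ z : G, z ≠ 1 → (∃ k : ℕ, orderOf z = q ^ k) →
    ∃ g h : G, IsConj z g ∧ IsConj z h ∧ g * h⁻¹ ≠ 1 ∧ ∃ k : ℕ, orderOf (g * h⁻¹) = p ^ k

theorem no_conjDiff_in_normal {G : Type*} [Group G] [Finite G] {p q : ℕ} (hp : p.Prime)
    (hq : q.Prime) (N : Subgroup G) [hN : N.Normal] (hqN : q ∣ Nat.card N)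
    (hpN : ¬ p ∣ Nat.card N) (h : ConjDiff p q G) : False := by
  haveI : Fact q.Prime := ⟨hq⟩
  obtain ⟨z, hz⟩ := exists_prime_orderOf_dvd_card' q hqN
  have hzG : orderOf (z : G) = q := by rw [Subgroup.orderOf_coe]; exact hz
  have hz1 : (z : G) ≠ 1 := by
    intro h1
    rw [h1, orderOf_one] at hzG
    exact hq.one_lt.ne hzG
  obtain ⟨g, h', hg, hh, hne, k, hk⟩ := h (z : G) hz1 ⟨1, by rw [hzG, pow_one]⟩
  have hgN : g ∈ N := by
    obtain ⟨c, hc⟩ := isConj_iff.mp hg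
    rw [← hc]
    exact hN.conj_mem _ z.2 c
  have hhN : h' ∈ N := by
    obtain ⟨c, hc⟩ := isConj_iff.mp hh
    rw [← hc]
    exact hN.conj_mem _ z.2 c
  have hu : g * h'⁻¹ ∈ N := N.mul_mem hgN (N.inv_mem hhN)
  have hk0 : k ≠ 0 := by
    rintro rfl
    rw [pow_zero, orderOf_eq_one_iff] at hk
    exact hne hk
  apply hpN
  have hord : orderOf (⟨g * h'⁻¹, hu⟩ : N) = p ^ k := by
    rw [← Subgroup.orderOf_coe]
    exact hk
  have h2 : p ^ k ∣ Nat.card N := by
    rw [← hord]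
    exact orderOf_dvd_natCard _
  exact (dvd_pow_self p hk0).trans h2

theorem psolvable_conjDiff_false {G : Type*} [Group G] [Finite G] {p q : ℕ} (hp : p.Prime)
    (hq : q.Prime) (hpq : p ≠ q) (hpG : p ∣ Nat.card G) (hsolv : IsPSolvable p G)
    (h1 : ConjDiff p q G) (h2 : ConjDiff q p G) : False := by
  obtain ⟨n, H, h0, hn, hmono, hnorm, hstep⟩ := hsolv
  have hex : ∃ k : ℕ, ∃ hk : k < n + 1,
      p ∣ Nat.card (H ⟨k, hk⟩) ∨ q ∣ Nat.card (H ⟨k, hk⟩) := by
    refine ⟨n, Nat.lt_succ_self n, Or.inl ?_⟩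
    have : H ⟨n, Nat.lt_succ_self n⟩ = ⊤ := by
      rw [← hn]
      rfl
    rw [this, Subgroup.card_top]
    exact hpG
  classical
  obtain ⟨k, ⟨hk, hkdiv⟩, hmin⟩ : ∃ k : ℕ, (∃ hk : k < n + 1,
      p ∣ Nat.card (H ⟨k, hk⟩) ∨ q ∣ Nat.card (H ⟨k, hk⟩)) ∧
      ∀ j < k, ¬ ∃ hj : j < n + 1, p ∣ Nat.card (H ⟨j, hj⟩) ∨ q ∣ Nat.card (H ⟨j, hj⟩) :=
    ⟨Nat.find hex, Nat.find_spec hex, fun j hj => Nat.find_min hex hj⟩
  rcases Nat.eq_zero_or_pos k with hk0 | hkpos
  · subst hk0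
    have hH : H ⟨0, hk⟩ = ⊥ := by
      rw [← h0]
      rfl
    rw [hH, Subgroup.card_bot] at hkdiv
    rcases hkdiv with h | h
    · exact hp.one_lt.ne' (Nat.dvd_one.mp h)
    · exact hq.one_lt.ne' (Nat.dvd_one.mp h)
  obtain ⟨i, rfl⟩ : ∃ i, k = i + 1 := ⟨k - 1, by omega⟩
  have hi : i < n := by omega
  have hprev := hmin i (Nat.lt_succ_self i)
  push Not at hprev
  obtain ⟨hpc, hqc⟩ := hprev (by omega)
  have e1 : (⟨i, by omega⟩ : Fin (n + 1)) = (⟨i, hi⟩ : Fin n).castSucc := rfl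
  have e2 : (⟨i + 1, hk⟩ : Fin (n + 1)) = (⟨i, hi⟩ : Fin n).succ := rfl
  rw [e1] at hpc hqc
  rw [e2] at hkdiv
  have hle : H (⟨i, hi⟩ : Fin n).castSucc ≤ H (⟨i, hi⟩ : Fin n).succ :=
    hmono (Fin.castSucc_lt_succ).le
  have hcard : Nat.card (H (⟨i, hi⟩ : Fin n).castSucc) *
      (H (⟨i, hi⟩ : Fin n).castSucc).relIndex (H (⟨i, hi⟩ : Fin n).succ) =
      Nat.card (H (⟨i, hi⟩ : Fin n).succ) := by
    have := Subgroup.relIndex_mul_relIndex (H := (⊥ : Subgroup G))
      (K := H (⟨i, hi⟩ : Fin n).castSucc) (L := H (⟨i, hi⟩ : Fin n).succ) bot_le hle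
    rw [Subgroup.relIndex_bot_left, Subgroup.relIndex_bot_left] at this
    exact this
  haveI : (H (⟨i, hi⟩ : Fin n).succ).Normal := hnorm _
  rcases hstep ⟨i, hi⟩ with ⟨m, hm⟩ | hcop
  · -- a `p`-step: the new term has order divisible by `p` and prime to `q`
    have hqn : ¬ q ∣ Nat.card (H (⟨i, hi⟩ : Fin n).succ) := by
      rw [← hcard, hm]
      intro hd
      rcases (Nat.Prime.dvd_mul hq).mp hd with h | h
      · exact hqc h
      · exact hpq ((Nat.prime_dvd_prime_iff_eq hq hp).mp (hq.dvd_of_dvd_pow h)).symm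
    have hpn : p ∣ Nat.card (H (⟨i, hi⟩ : Fin n).succ) := by
      rcases hkdiv with h | h
      · exact h
      · exact absurd h hqn
    exact no_conjDiff_in_normal hq hp (H (⟨i, hi⟩ : Fin n).succ) hpn hqn h2
  · -- a `p'`-step: the new term has order prime to `p` and divisible by `q`
    have hpn : ¬ p ∣ Nat.card (H (⟨i, hi⟩ : Fin n).succ) := by
      rw [← hcard]
      intro hd
      rcases (Nat.Prime.dvd_mul hp).mp hd with h | h
      · exact hpc h
      · exact (Nat.Prime.coprime_iff_not_dvd hp).mp hcop.symm h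
    have hqn : q ∣ Nat.card (H (⟨i, hi⟩ : Fin n).succ) := by
      rcases hkdiv with h | h
      · exact absurd h hpn
      · exact h
    exact no_conjDiff_in_normal hp hq (H (⟨i, hi⟩ : Fin n).succ) hqn hpn h1

end Cfsg.Agent.Helper55
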