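import Mathlib.GroupTheory.Sylow
import Mathlib.Data.Fin.Tuple.Basic
import Mathlib.Logic.Relation
import Cfsg.Prelude.Def_SylowChains
import Cfsg.Agent.Helper55.SylIn

/-!
# helper55: regular subgroups for a normalizer functor — transport between a subgroup and the
ambient group
-/

set_option autoImplicit false

namespace Cfsg.Agent.Helper55

open scoped Pointwise

/-- A chain gives a reflexive-transitive path. -/
theorem reflTransGen_of_chain {α : Type*} {r : α → α → Prop} {n : ℕ} (c : Fin (n + 1) → α)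
    (h : ∀ i : Fin n, r (c i.castSucc) (c i.succ)) :
    Relation.ReflTransGen r (c 0) (c (Fin.last n)) := by
  have key : ∀ k (hk : k ≤ n), Relation.ReflTransGen r (c 0) (c ⟨k, Nat.lt_succ_of_le hk⟩) := by
    intro k
    induction k with
    | zero => intro _; exact Relation.ReflTransGen.refl
    | succ k ih =>
      intro hk
      exact Relation.ReflTransGen.tail (ih (le_of_lt hk)) (h ⟨k, hk⟩)
  exact key n le_rfl

/-- A reflexive-transitive path gives a chain. -/
theorem chain_of_reflTransGen {α : Type*} {r : α → α → Prop} {a b : α}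
    (h : Relation.ReflTransGen r a b) :
    ∃ (n : ℕ) (c : Fin (n + 1) → α), c 0 = a ∧ c (Fin.last n) = b ∧
      ∀ i : Fin n, r (c i.castSucc) (c i.succ) := by
  induction h with
  | refl => exact ⟨0, fun _ => a, rfl, rfl, fun i => i.elim0⟩
  | @tail b d _ hbd ih =>
    obtain ⟨n, c, hc0, hcn, hc⟩ := ih
    refine ⟨n + 1, Fin.snoc (α := fun _ => α) c d, ?_, ?_, ?_⟩
    · rw [← Fin.castSucc_zero, Fin.snoc_castSucc]; exact hc0
    · exact Fin.snoc_last (α := fun _ => α) d c
    · intro i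
      refine Fin.lastCases ?_ (fun j => ?_) i
      · rw [Fin.snoc_castSucc, Fin.succ_last]
        have := Fin.snoc_last (α := fun _ => α) d c
        rw [this, hcn]; exact hbd
      · rw [Fin.snoc_castSucc, Fin.succ_castSucc, Fin.snoc_castSucc]
        exact hc j

variable {G : Type*} [Group G]

/-- A step of a chain of Sylow `p`-subgroups of `M` for the functor `f`. -/
def MStep (p : ℕ) (f : Subgroup G → Set (Subgroup G)) (M R c c' : Subgroup G) : Prop :=
  IsSylIn p M c ∧ IsSylIn p M c' ∧ ∃ F ∈ f c, ∃ x ∈ M, x ∈ Subgroup.normalizer (F : Set G) ∧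
    c' = c.map (MulAut.conj x).toMonoidHom ∧ R ≤ c'

/-- A step of a chain of Sylow `p`-subgroups of `G` for the functor `f`. -/
def FStep (p : ℕ) (f : Subgroup G → Set (Subgroup G)) (R : Subgroup G) (P Q : Sylow p G) : Prop :=
  ∃ F ∈ f (P : Subgroup G), ∃ x ∈ Subgroup.normalizer (F : Set G), Q = x • P ∧ R ≤ (Q : Subgroup G)

/-- Conjugation commutes with the inclusion of a subgroup. -/
theorem map_subtype_map_conj (M : Subgroup G) (A : Subgroup ↥M) (m : ↥M) :
    (A.map (MulAut.conj m).toMonoidHom).map M.subtype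
      = (A.map M.subtype).map (MulAut.conj (m : G)).toMonoidHom := by
  rw [Subgroup.map_map, Subgroup.map_map]
  congr 1

/-- Undoing a conjugation. -/
theorem eq_map_conj_of_map_conj_inv_eq {A B : Subgroup G} {x : G}
    (h : A.map (MulAut.conj x⁻¹).toMonoidHom = B) : A = B.map (MulAut.conj x).toMonoidHom := by
  rw [← h, map_conj_map_conj, mul_inv_cancel, map_conj_of_mem (Subgroup.one_mem _)]

section

variable [Finite G] {p : ℕ} [Fact p.Prime]

/-- Regularity of `M`, read inside the ambient group. -/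
theorem regular_down {f : Subgroup G → Set (Subgroup G)} (hf : Cfsg.IsNormalizerFunctor p f)
    {M : Subgroup G} (hreg : Cfsg.IsFunctorRegular p f M) {P Q : Subgroup G}
    (hP : IsSylIn p M P) (hQ : IsSylIn p M Q) (hne : P ≠ Q) (hint : P ⊓ Q ≠ ⊥) :
    Relation.ReflTransGen (MStep p f M (P ⊓ Q)) P Q := by
  classical
  obtain ⟨P', hP1, hP2⟩ := hP.exists_sylow
  obtain ⟨Q', hQ1, hQ2⟩ := hQ.exists_sylow
  have hne' : P' ≠ Q' := by
    intro h; apply hne; rw [← hP2, ← hQ2, h]
  have hinj : Function.Injective M.subtype := M.subtype_injective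
  have hinf : ((P' : Subgroup ↥M) ⊓ (Q' : Subgroup ↥M)).map M.subtype = P ⊓ Q := by
    rw [Subgroup.map_inf_eq _ _ _ hinj, hP2, hQ2]
  have hint' : (P' : Subgroup ↥M) ⊓ (Q' : Subgroup ↥M) ≠ ⊥ := by
    intro h; apply hint; rw [← hinf, h, Subgroup.map_bot]
  obtain ⟨n, c', X', x', hc0, hcn, H⟩ := hreg P' Q' hne' hint'
  have hchain : ∀ i : Fin n, MStep p f M (P ⊓ Q) ((c' i.castSucc : Subgroup ↥M).map M.subtype)
      ((c' i.succ : Subgroup ↥M).map M.subtype) := by
    intro i
    obtain ⟨hX1, hX2, hxX, hconj, hle⟩ := H i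
    refine ⟨isSylIn_of_sylow _, isSylIn_of_sylow _, ?_⟩
    obtain ⟨hXF, hcard⟩ := mem_sylowMembers_iff.mp hX1
    obtain ⟨X₀, ⟨P₀, F₀, hF₀, hX₀⟩, hX₀'⟩ := hXF
    have hX₀'' : X₀.subgroupOf M = X' i := hX₀'
    set R : Subgroup G := (P₀ : Subgroup ↥M).map M.subtype with hR
    have hRsyl : IsSylIn p M R := isSylIn_of_sylow P₀
    have hRp : IsPGroup p R := hRsyl.isPGroup
    obtain ⟨hfR1, hfR2⟩ := hf R hRp
    have hF₀R := hfR1 F₀ hF₀
    have hX₀M : X₀ ≤ M := by rw [hX₀]; exact inf_le_left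
    have hRX₀ : R ≤ X₀ := by
      rw [hX₀]; exact le_inf hRsyl.1 (le_trans Subgroup.le_normalizer hF₀R.2)
    have hX'map : (X' i).map M.subtype = X₀ := by
      rw [← hX₀'', Subgroup.subgroupOf_map_subtype]; exact inf_of_le_left hX₀M
    set c : Subgroup G := (c' i.castSucc : Subgroup ↥M).map M.subtype with hc
    have hcsyl : IsSylIn p M c := isSylIn_of_sylow _
    have hcardX : Nat.card ↥(X' i) = Nat.card ↥X₀ := by
      rw [← hX'map]
      exact Nat.card_congr (Subgroup.equivMapOfInjective _ M.subtype hinj).toEquiv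
    have hcardG : Nat.card ↥(c ⊓ X₀) = p ^ (Nat.card ↥X₀).factorization p := by
      have e1 : ((c' i.castSucc : Subgroup ↥M) ⊓ X' i).map M.subtype = c ⊓ X₀ := by
        rw [Subgroup.map_inf_eq _ _ _ hinj, hX'map]
      rw [← e1, Nat.card_congr (Subgroup.equivMapOfInjective _ M.subtype hinj).symm.toEquiv,
        hcard, hcardX]
    have hcX₀ : c ≤ X₀ := hRsyl.le_of_inf hRX₀ hX₀M hcsyl hcardG
    obtain ⟨m, hm, hcm⟩ := (hRsyl.of_le hRX₀ hX₀M).exists_conj (hcsyl.of_le hcX₀ hX₀M)
    have hmN : m ∈ Subgroup.normalizer (F₀ : Set G) := by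
      rw [hX₀] at hm; exact (Subgroup.mem_inf.mp hm).2
    have hF₀c : F₀ ∈ f c := by
      rw [hcm, hfR2 m]
      exact ⟨F₀, hF₀, map_conj_of_mem_normalizer hmN⟩
    have hxX₀ : (x' i : G) ∈ X₀ := by
      rw [← hX₀'', Subgroup.mem_subgroupOf] at hxX; exact hxX
    refine ⟨F₀, hF₀c, (x' i : G), (x' i).2, ?_, ?_, ?_⟩
    · rw [hX₀] at hxX₀; exact (Subgroup.mem_inf.mp hxX₀).2
    · apply eq_map_conj_of_map_conj_inv_eq
      have h1 : ((c' i.succ : Subgroup ↥M).map (MulAut.conj (x' i)⁻¹).toMonoidHom).map M.subtype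
          = c := by
        have : Cfsg.subgroupConjRight (x' i) (c' i.succ : Subgroup ↥M)
            = (c' i.castSucc : Subgroup ↥M) := hconj
        unfold Cfsg.subgroupConjRight at this
        rw [this]
      rw [map_subtype_map_conj] at h1
      exact h1
    · rw [← hinf]
      exact Subgroup.map_mono (le_trans hle inf_le_left)
  have h1 := reflTransGen_of_chain (fun i => (c' i : Subgroup ↥M).map M.subtype) hchain
  have e0 : ((c' 0 : Sylow p ↥M) : Subgroup ↥M).map M.subtype = P := by rw [hc0, hP2]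
  have en : ((c' (Fin.last n) : Sylow p ↥M) : Subgroup ↥M).map M.subtype = Q := by rw [hcn, hQ2]
  simp only [e0, en] at h1
  exact h1

/-- A Sylow `p`-subgroup of `⊤`, as a Sylow `p`-subgroup of `G`. -/
theorem exists_sylow_of_isSylIn_top {c : Subgroup G} (hc : IsSylIn p (⊤ : Subgroup G) c) :
    ∃ C : Sylow p G, (C : Subgroup G) = c := by
  have h2 : Nat.card c = p ^ (Nat.card G).factorization p := by
    rw [hc.2, Subgroup.card_top]
  exact ⟨Sylow.ofCard c h2, rfl⟩

/-- Regularity of the whole group from chains in the group. -/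
theorem regular_top_up {f : Subgroup G → Set (Subgroup G)} (hf : Cfsg.IsNormalizerFunctor p f)
    (h : ∀ P Q : Sylow p G, P ≠ Q → (P : Subgroup G) ⊓ (Q : Subgroup G) ≠ ⊥ →
      Relation.ReflTransGen (FStep p f ((P : Subgroup G) ⊓ (Q : Subgroup G))) P Q) :
    Cfsg.IsFunctorRegular p f ⊤ := by
  classical
  intro S' T' hne hint
  have hinj : Function.Injective (⊤ : Subgroup G).subtype := Subgroup.subtype_injective _
  obtain ⟨S, hS⟩ := exists_sylow_of_isSylIn_top (isSylIn_of_sylow S')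
  obtain ⟨T, hT⟩ := exists_sylow_of_isSylIn_top (isSylIn_of_sylow T')
  have hST : S ≠ T := by
    intro hh
    apply hne
    apply Sylow.ext
    apply Subgroup.map_injective hinj
    rw [← hS, ← hT, hh]
  have hinf : ((S' : Subgroup ↥(⊤ : Subgroup G)) ⊓ (T' : Subgroup ↥(⊤ : Subgroup G))).map
      (⊤ : Subgroup G).subtype = (S : Subgroup G) ⊓ (T : Subgroup G) := by
    rw [Subgroup.map_inf_eq _ _ _ hinj, hS, hT]
  have hint' : (S : Subgroup G) ⊓ (T : Subgroup G) ≠ ⊥ := by
    intro hh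
    apply hint
    rw [← hinf] at hh
    exact (Subgroup.map_eq_bot_iff_of_injective _ hinj).mp hh
  obtain ⟨n, c, hc0, hcn, hstep⟩ := chain_of_reflTransGen (h S T hST hint')
  have hstep' : ∀ i : Fin n, ∃ F, F ∈ f (c i.castSucc : Subgroup G) ∧
      ∃ x, x ∈ Subgroup.normalizer (F : Set G) ∧ c i.succ = x • c i.castSucc ∧
        (S : Subgroup G) ⊓ (T : Subgroup G) ≤ (c i.succ : Subgroup G) := hstep
  choose F hF x hx hconj hR using hstep'
  have hsub : ∀ C : Sylow p G, ((C.subtype le_top : Sylow p ↥(⊤ : Subgroup G)) :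
      Subgroup ↥(⊤ : Subgroup G)).map (⊤ : Subgroup G).subtype = (C : Subgroup G) := by
    intro C
    rw [Sylow.coe_subtype, Subgroup.subgroupOf_map_subtype, inf_top_eq]
  have hback : ∀ (C : Sylow p G) (C' : Sylow p ↥(⊤ : Subgroup G)),
      (C' : Subgroup ↥(⊤ : Subgroup G)).map (⊤ : Subgroup G).subtype = (C : Subgroup G) →
      C.subtype le_top = C' := by
    intro C C' hCC'
    apply Sylow.ext
    apply Subgroup.map_injective hinj
    rw [hsub, hCC']
  have hmemsub : ∀ (C : Sylow p G) (z : ↥(⊤ : Subgroup G)),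
      z ∈ ((C.subtype le_top : Sylow p ↥(⊤ : Subgroup G)) : Subgroup ↥(⊤ : Subgroup G)) ↔
        (z : G) ∈ (C : Subgroup G) := by
    intro C z
    rw [Sylow.coe_subtype, Subgroup.mem_subgroupOf]
  have hcN : ∀ i : Fin n, (c i.castSucc : Subgroup G) ≤ Subgroup.normalizer (F i : Set G) := by
    intro i
    exact le_trans Subgroup.le_normalizer
      (((hf (c i.castSucc : Subgroup G) (c i.castSucc).isPGroup').1 (F i) (hF i)).2)
  have hcN' : ∀ i : Fin n, (c i.succ : Subgroup G) ≤ Subgroup.normalizer (F i : Set G) := by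
    intro i z hz
    rw [hconj i, sylow_smul_coe, mem_map_conj_iff] at hz
    have h1 := hcN i hz
    have h2 := Subgroup.mul_mem _ (Subgroup.mul_mem _ (hx i) h1) (Subgroup.inv_mem _ (hx i))
    simpa [mul_assoc] using h2
  have hXmem : ∀ i : Fin n, ((⊤ : Subgroup G) ⊓ Subgroup.normalizer (F i : Set G)).subgroupOf ⊤ ∈
      (fun X : Subgroup G => X.subgroupOf ⊤) '' Cfsg.functorFamily p f ⊤ := by
    intro i
    refine ⟨⊤ ⊓ Subgroup.normalizer (F i : Set G), ⟨(c i.castSucc).subtype le_top, F i, ?_, rfl⟩, rfl⟩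
    rw [hsub]; exact hF i
  have hsyl : ∀ (C : Sylow p G) (i : Fin n), (C : Subgroup G) ≤ Subgroup.normalizer (F i : Set G) →
      ((⊤ : Subgroup G) ⊓ Subgroup.normalizer (F i : Set G)).subgroupOf ⊤ ∈
        Cfsg.sylowMembers p ((fun X : Subgroup G => X.subgroupOf ⊤) '' Cfsg.functorFamily p f ⊤)
          ((C.subtype le_top : Sylow p ↥(⊤ : Subgroup G)) : Subgroup ↥(⊤ : Subgroup G)) := by
    intro C i hC
    refine ⟨hXmem i, ?_⟩
    have hle : ((C.subtype le_top : Sylow p ↥(⊤ : Subgroup G)) : Subgroup ↥(⊤ : Subgroup G)) ≤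
        ((⊤ : Subgroup G) ⊓ Subgroup.normalizer (F i : Set G)).subgroupOf ⊤ := by
      intro z hz
      rw [hmemsub] at hz
      rw [Subgroup.mem_subgroupOf]
      exact Subgroup.mem_inf.mpr ⟨Subgroup.mem_top _, hC hz⟩
    refine ⟨(C.subtype le_top).subtype hle, ?_⟩
    rw [Sylow.coe_subtype, Subgroup.subgroupOf_map_subtype]
  refine ⟨n, fun i => (c i).subtype le_top,
    fun i => ((⊤ : Subgroup G) ⊓ Subgroup.normalizer (F i : Set G)).subgroupOf ⊤,
    fun i => ⟨x i, Subgroup.mem_top _⟩, ?_, ?_, ?_⟩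
  · show (c 0).subtype le_top = S'
    apply hback; rw [hc0, hS]
  · show (c (Fin.last n)).subtype le_top = T'
    apply hback; rw [hcn, hT]
  · intro i
    refine ⟨hsyl _ i (hcN i), hsyl _ i (hcN' i), ?_, ?_, ?_⟩
    · show (⟨x i, Subgroup.mem_top _⟩ : ↥(⊤ : Subgroup G)) ∈
        ((⊤ : Subgroup G) ⊓ Subgroup.normalizer (F i : Set G)).subgroupOf ⊤
      rw [Subgroup.mem_subgroupOf]
      exact Subgroup.mem_inf.mpr ⟨Subgroup.mem_top _, hx i⟩
    · show Cfsg.subgroupConjRight (⟨x i, Subgroup.mem_top _⟩ : ↥(⊤ : Subgroup G))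
          (((c i.succ).subtype le_top : Sylow p ↥(⊤ : Subgroup G)) : Subgroup ↥(⊤ : Subgroup G))
          = (((c i.castSucc).subtype le_top : Sylow p ↥(⊤ : Subgroup G)) : Subgroup ↥(⊤ : Subgroup G))
      unfold Cfsg.subgroupConjRight
      ext z
      rw [mem_map_conj_iff, hmemsub, hmemsub, hconj i, sylow_smul_coe, mem_map_conj_iff]
      have e : (x i)⁻¹ * ((((⟨x i, Subgroup.mem_top _⟩ : ↥(⊤ : Subgroup G))⁻¹⁻¹ * z *
          (⟨x i, Subgroup.mem_top _⟩ : ↥(⊤ : Subgroup G))⁻¹ : ↥(⊤ : Subgroup G)) : G)) * x i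
          = (z : G) := by
        simp [mul_assoc]
      rw [e]
    · intro z hz
      have hz' : (z : G) ∈ (S : Subgroup G) ⊓ (T : Subgroup G) := by
        rw [← hinf]; exact ⟨z, hz, rfl⟩
      have h1 := hR i hz'
      refine Subgroup.mem_inf.mpr ⟨(hmemsub _ z).mpr h1, ?_⟩
      rw [Subgroup.mem_subgroupOf]
      exact Subgroup.mem_inf.mpr ⟨Subgroup.mem_top _, hcN' i h1⟩

end

end Cfsg.Agent.Helper55
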