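import Mathlib.GroupTheory.Sylow
import Cfsg.Prelude.Def_SylowChains
import Cfsg.Agent.Helper55.FunctorRegular

/-!
# helper55: chains of Sylow subgroups for a family of subgroups; maximal `p`-local subgroups
-/

set_option autoImplicit false

namespace Cfsg.Agent.Helper55

open scoped Pointwise

variable {G : Type*} [Group G]

/-- A step of a chain of Sylow `p`-subgroups of `G` for the family `𝓖`. -/
def GStep (p : ℕ) (𝓖 : Set (Subgroup G)) (R : Subgroup G) (P Q : Sylow p G) : Prop :=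
  ∃ (X : Subgroup G) (x : G), X ∈ Cfsg.sylowMembers p 𝓖 (P : Subgroup G) ∧
    X ∈ Cfsg.sylowMembers p 𝓖 (Q : Subgroup G) ∧ x ∈ X ∧ Q = x • P ∧ R ≤ (Q : Subgroup G) ⊓ X

/-- Control of Sylow intersections from paths. -/
theorem csi_of_gconn {p : ℕ} {𝓖 : Set (Subgroup G)}
    (h : ∀ S T : Sylow p G, S ≠ T → (S : Subgroup G) ⊓ (T : Subgroup G) ≠ ⊥ →
      Relation.ReflTransGen (GStep p 𝓖 ((S : Subgroup G) ⊓ (T : Subgroup G))) S T) :
    Cfsg.ControlsSylowIntersections p 𝓖 := by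
  intro S T hne hint
  obtain ⟨n, c, hc0, hcn, hstep⟩ := chain_of_reflTransGen (h S T hne hint)
  have hstep' : ∀ i : Fin n, ∃ (X : Subgroup G) (x : G),
      X ∈ Cfsg.sylowMembers p 𝓖 (c i.castSucc : Subgroup G) ∧
      X ∈ Cfsg.sylowMembers p 𝓖 (c i.succ : Subgroup G) ∧ x ∈ X ∧ c i.succ = x • c i.castSucc ∧
      (S : Subgroup G) ⊓ (T : Subgroup G) ≤ (c i.succ : Subgroup G) ⊓ X := hstep
  choose X x h1 h2 h3 h4 h5 using hstep'
  refine ⟨n, c, X, x, hc0, hcn, fun i => ⟨h1 i, h2 i, h3 i, ?_, h5 i⟩⟩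
  rw [h4 i, sylow_smul_coe]
  unfold Cfsg.subgroupConjRight
  rw [map_conj_map_conj, inv_mul_cancel, map_conj_of_mem (Subgroup.one_mem _)]

section

variable [Finite G] {p : ℕ} [Fact p.Prime]

/-- A step through a member `M` of the family in which the Sylow subgroup meets `M` in a Sylow
subgroup of `M`. -/
theorem gstep_local {𝓖 : Set (Subgroup G)} {M R : Subgroup G} (hM : M ∈ 𝓖) (C : Sylow p G)
    (hsyl : IsSylIn p M ((C : Subgroup G) ⊓ M)) {m : G} (hm : m ∈ M)
    (hR : R ≤ ((m • C : Sylow p G) : Subgroup G) ⊓ M) : GStep p 𝓖 R C (m • C) := by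
  refine ⟨M, m, mem_sylowMembers_iff.mpr ⟨hM, hsyl.2⟩, mem_sylowMembers_iff.mpr ⟨hM, ?_⟩, hm, rfl, hR⟩
  have e : ((m • C : Sylow p G) : Subgroup G) ⊓ M
      = ((C : Subgroup G) ⊓ M).map (MulAut.conj m).toMonoidHom := by
    rw [Subgroup.map_inf_eq _ _ _ (MulAut.conj m).injective, ← sylow_smul_coe, map_conj_of_mem hm]
  rw [e, card_map_conj]; exact hsyl.2

/-- A step through the normalizer of a member of `f C`. -/
theorem gstep_functor {𝓖 : Set (Subgroup G)} {f : Subgroup G → Set (Subgroup G)}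
    (h𝓖 : Cfsg.functorFamily p f ⊤ ⊆ 𝓖) (hf : Cfsg.IsNormalizerFunctor p f) {R : Subgroup G}
    (C : Sylow p G) (F : Subgroup G) (hF : F ∈ f (C : Subgroup G)) (x : G)
    (hx : x ∈ Subgroup.normalizer (F : Set G))
    (hR : R ≤ ((x • C : Sylow p G) : Subgroup G)) : GStep p 𝓖 R C (x • C) := by
  set X : Subgroup G := ⊤ ⊓ Subgroup.normalizer (F : Set G) with hX
  have hXmem : X ∈ 𝓖 := by
    apply h𝓖
    refine ⟨C.subtype le_top, F, ?_, rfl⟩
    rw [Sylow.coe_subtype, Subgroup.subgroupOf_map_subtype, inf_top_eq]; exact hF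
  have hCN : (C : Subgroup G) ≤ Subgroup.normalizer (F : Set G) :=
    le_trans Subgroup.le_normalizer ((hf (C : Subgroup G) C.isPGroup').1 F hF).2
  have hCX : (C : Subgroup G) ≤ X := le_inf le_top hCN
  have hC'X : ((x • C : Sylow p G) : Subgroup G) ≤ X := by
    intro z hz
    rw [sylow_smul_coe, mem_map_conj_iff] at hz
    have h1 := hCN hz
    have h2 := Subgroup.mul_mem _ (Subgroup.mul_mem _ hx h1) (Subgroup.inv_mem _ hx)
    exact Subgroup.mem_inf.mpr ⟨Subgroup.mem_top _, by simpa [mul_assoc] using h2⟩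
  have hmem : ∀ C' : Sylow p G, (C' : Subgroup G) ≤ X →
      X ∈ Cfsg.sylowMembers p 𝓖 (C' : Subgroup G) := by
    intro C' hC'
    exact ⟨hXmem, C'.subtype hC', by rw [Sylow.coe_subtype, Subgroup.subgroupOf_map_subtype]⟩
  exact ⟨X, x, hmem C hCX, hmem _ hC'X, Subgroup.mem_inf.mpr ⟨Subgroup.mem_top _, hx⟩, rfl,
    le_inf hR (le_trans hR hC'X)⟩

/-- Every `p`-local subgroup lies in a maximal `p`-local subgroup. -/
theorem exists_maximal_pLocal {N : Subgroup G} (hN : Cfsg.IsPLocal p N) :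
    ∃ M : Subgroup G, Cfsg.IsMaximalPLocal p M ∧ N ≤ M := by
  have key : ∀ (k : ℕ) (N : Subgroup G), Cfsg.IsPLocal p N → Nat.card G - Nat.card N ≤ k →
      ∃ M : Subgroup G, Cfsg.IsMaximalPLocal p M ∧ N ≤ M := by
    intro k
    induction k with
    | zero =>
      intro N hN hk
      refine ⟨N, ⟨hN, ?_⟩, le_rfl⟩
      intro N' _ hle
      have h1 := Subgroup.card_le_card_group N'
      have h2 := Subgroup.card_le_card_group N
      exact (Subgroup.eq_of_le_of_card_ge hle (by omega)).symm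
    | succ k ih =>
      intro N hN hk
      by_cases hmax : ∀ N' : Subgroup G, Cfsg.IsPLocal p N' → N ≤ N' → N' = N
      · exact ⟨N, ⟨hN, hmax⟩, le_rfl⟩
      · push Not at hmax
        obtain ⟨N', hN', hle, hne⟩ := hmax
        have hlt : Nat.card N < Nat.card N' := by
          by_contra hcon
          push Not at hcon
          exact hne (Subgroup.eq_of_le_of_card_ge hle hcon).symm
        have h1 := Subgroup.card_le_card_group N'
        obtain ⟨M, hM, hN'M⟩ := ih N' hN' (by omega)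
        exact ⟨M, hM, le_trans hle hN'M⟩
  exact key _ N hN le_rfl

end

end Cfsg.Agent.Helper55
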