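import Mathlib
import Cfsg.Agent.Lib.Helper96.LSDefs

/-!
# The kernel of `G → Q` is free of finite index (S5286-FR)
-/

namespace Cfsg.Agent.Helper55.LS

open Cfsg.Agent.Lib.Helper96.LS

universe u

variable {Q : Type u} [Group Q] {I : Type u}

/-- The left-component map on the kernel of `G → Q`. -/
noncomputable def kerLeft (D : Dat Q I) :
    ↥((SemidirectProduct.rightHom.comp D.G.subtype : ↥D.G →* Q).ker) →* FreeGroup D.X where
  toFun g := g.1.1.left
  map_one' := rfl
  map_mul' g g' := by
    have hg : (g.1.1 : D.Lam).right = 1 := g.2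
    show ((g.1.1 : D.Lam) * (g'.1.1 : D.Lam)).left = _
    rw [SemidirectProduct.mul_left, hg, map_one]
    rfl

theorem kerLeft_injective (D : Dat Q I) : Function.Injective (kerLeft D) := by
  rw [injective_iff_map_eq_one]
  intro g hg
  have h1 : (g.1.1 : D.Lam).right = 1 := g.2
  have h2 : (g.1.1 : D.Lam).left = 1 := hg
  apply Subtype.ext
  apply Subtype.ext
  exact SemidirectProduct.ext h2 h1

/-- S5286-FR, part 1: the kernel of `G → Q` is a free group. -/
theorem free_kernel (D : Dat Q I) :
    IsFreeGroup ↥((SemidirectProduct.rightHom.comp D.G.subtype : ↥D.G →* Q).ker) := by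
  have h1 : IsFreeGroup ↥(kerLeft D).range := subgroupIsFreeOfIsFree _
  exact IsFreeGroup.ofMulEquiv (MonoidHom.ofInjective (kerLeft_injective D)).symm

/-- S5286-FR, part 2: the kernel of `G → Q` has index dividing `|Q|`. -/
theorem index_kernel_dvd (D : Dat Q I) [Finite Q] :
    ((SemidirectProduct.rightHom.comp D.G.subtype : ↥D.G →* Q).ker).index ∣ Nat.card Q := by
  rw [Subgroup.index_ker]
  exact Subgroup.card_subgroup_dvd_card _

end Cfsg.Agent.Helper55.LS
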