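import Mathlib

/-!
# Two Mathlib-only pieces for the Leary–Stancu construction (S5286-SIG and S5286-HC)
-/

namespace Cfsg.Agent.Helper55.LS

/-- S5286-SIG: an injective homomorphism `f : P →* S` from a subgroup of a finite group `S`
is induced by a permutation `σ` of `S` intertwining left multiplication by `p` and by `f p`. -/
theorem exists_sigma {S : Type*} [Group S] [Finite S] (P : Subgroup S) (f : P →* S)
    (hf : Function.Injective f) :
    ∃ σ : Equiv.Perm S, ∀ (p : P) (s : S), σ ((p : S) * s) = f p * σ s := by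
  classical
  obtain ⟨T, hPT, -⟩ := P.exists_isComplement_right 1
  obtain ⟨T', hRT', -⟩ := f.range.exists_isComplement_right 1
  have hc1 : Nat.card P * Nat.card T = Nat.card S := hPT.card_mul_card
  have hc2 : Nat.card f.range * Nat.card T' = Nat.card S := hRT'.card_mul_card
  have hPR : Nat.card P = Nat.card f.range :=
    Nat.card_congr (MonoidHom.ofInjective hf).toEquiv
  have hPpos : 0 < Nat.card P := Nat.card_pos
  have hTT' : Nat.card T = Nat.card T' := by
    have h3 : Nat.card P * Nat.card T = Nat.card P * Nat.card T' := by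
      rw [hc1, hPR, hc2]
    exact Nat.eq_of_mul_eq_mul_left hPpos h3
  have hTfin : Finite T := Finite.of_injective (fun t : T => (t : S)) Subtype.val_injective
  have hT'fin : Finite T' := Finite.of_injective (fun t : T' => (t : S)) Subtype.val_injective
  obtain ⟨e⟩ : Nonempty (T ≃ T') :=
    ⟨(Finite.equivFin T).trans ((finCongr hTT').trans (Finite.equivFin T').symm)⟩
  refine ⟨hPT.equiv.trans ((Equiv.prodCongr (MonoidHom.ofInjective hf).toEquiv e).trans
    hRT'.equiv.symm), ?_⟩
  intro p s
  have h1 : hPT.equiv ((p : S) * s) = (p * (hPT.equiv s).fst, (hPT.equiv s).snd) :=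
    hPT.equiv_mul_left p s
  show ((hRT'.equiv.symm ((Equiv.prodCongr (MonoidHom.ofInjective hf).toEquiv e)
      (hPT.equiv ((p : S) * s)))) : S) =
    f p * ((hRT'.equiv.symm ((Equiv.prodCongr (MonoidHom.ofInjective hf).toEquiv e)
      (hPT.equiv s))) : S)
  rw [h1, Subgroup.IsComplement.equiv_symm_apply, Subgroup.IsComplement.equiv_symm_apply]
  show (((MonoidHom.ofInjective hf) (p * (hPT.equiv s).fst) : f.range) : S) *
      ((e (hPT.equiv s).snd : T') : S) =
    f p * ((((MonoidHom.ofInjective hf) (hPT.equiv s).fst : f.range) : S) *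
      ((e (hPT.equiv s).snd : T') : S))
  rw [map_mul, Subgroup.coe_mul, MonoidHom.ofInjective_apply, mul_assoc]

/-- S5286-HC: conjugation by `q` on the image of `P` (inside the image of `S`) comes from a
homomorphism `P → S`. -/
theorem exists_hom_of_conj {Ω : Type*} [Group Ω] {S : Subgroup Ω} {Q : Type*} [Group Q]
    (lam : ↥S →* Q) (hlam : Function.Injective lam) (P : Subgroup Ω) (hP : P ≤ S) (q : Q)
    (h : ∀ x : P, ∃ s : ↥S, lam s = q * lam ⟨x, hP x.2⟩ * q⁻¹) :
    ∃ φ : P →* Ω, ∃ hφ : ∀ x : P, φ x ∈ S,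
      ∀ x : P, lam ⟨φ x, hφ x⟩ = q * lam ⟨x, hP x.2⟩ * q⁻¹ := by
  classical
  choose s hs using h
  have hmul : ∀ x y : P, s (x * y) = s x * s y := by
    intro x y
    apply hlam
    rw [map_mul, hs, hs, hs]
    have : (⟨((x * y : P) : Ω), hP (x * y).2⟩ : S) = ⟨x, hP x.2⟩ * ⟨y, hP y.2⟩ := rfl
    rw [this, map_mul]
    group
  refine ⟨S.subtype.comp (MonoidHom.mk' s hmul), fun x => (s x).2, fun x => ?_⟩
  exact hs x

end Cfsg.Agent.Helper55.LS
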