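import Cfsg.Agent.H43.MCDefs
import Cfsg.Agent.S0041

/-!
# S3905-CYC (piece of helper43's team project)

An elementary abelian `r`-group `R/Z` acting fixed-point-freely on the nontrivial abelian group
`L/Z` has order `r` (via S0041).
-/

set_option autoImplicit false

namespace Cfsg.Agent.Helper55.MC

open Cfsg.Agent.H43.MC

universe u

/-- Membership in the centre of `↥N` versus `ZN N`. -/
theorem mem_center_sub_iff {G : Type u} [Group G] (N : Subgroup G) (n : ↥N) :
    n ∈ Subgroup.center ↥N ↔ (n : G) ∈ ZN N := by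
  rw [Subgroup.mem_center_iff, mem_ZN, mem_cent_set]
  constructor
  · intro h
    refine ⟨n.2, fun m hm => ?_⟩
    have := h ⟨m, hm⟩
    exact congrArg Subtype.val this
  · intro h m
    apply Subtype.ext
    exact h.2 m.1 m.2

theorem cyc : StCyc.{u} := by
  intro G _ _ N r hr L R hZL hLN hZR hRN hLZ hRZ hnorm hab hcomm hpow hfpf
  have hπ1 : ∀ n : ↥N, QuotientGroup.mk' (Subgroup.center ↥N) n = 1 ↔ (n : G) ∈ ZN N := by
    intro n
    rw [← mem_center_sub_iff]
    exact QuotientGroup.eq_one_iff n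
  have hVmem : ∀ v, v ∈ (L.subgroupOf N).map (QuotientGroup.mk' (Subgroup.center ↥N)) ↔
      ∃ l : ↥N, (l : G) ∈ L ∧ QuotientGroup.mk' (Subgroup.center ↥N) l = v := by
    intro v
    constructor
    · rintro ⟨l, hl, rfl⟩
      exact ⟨l, Subgroup.mem_subgroupOf.mp hl, rfl⟩
    · rintro ⟨l, hl, rfl⟩
      exact ⟨l, Subgroup.mem_subgroupOf.mpr hl, rfl⟩
  have hAmem : ∀ v, v ∈ (R.subgroupOf N).map (QuotientGroup.mk' (Subgroup.center ↥N)) ↔
      ∃ t : ↥N, (t : G) ∈ R ∧ QuotientGroup.mk' (Subgroup.center ↥N) t = v := by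
    intro v
    constructor
    · rintro ⟨l, hl, rfl⟩
      exact ⟨l, Subgroup.mem_subgroupOf.mp hl, rfl⟩
    · rintro ⟨l, hl, rfl⟩
      exact ⟨l, Subgroup.mem_subgroupOf.mpr hl, rfl⟩
  haveI hVc : IsMulCommutative
      ((L.subgroupOf N).map (QuotientGroup.mk' (Subgroup.center ↥N))) := by
    refine ⟨⟨?_⟩⟩
    rintro ⟨a, ha⟩ ⟨b, hb⟩
    obtain ⟨l1, hl1, rfl⟩ := (hVmem a).mp ha
    obtain ⟨l2, hl2, rfl⟩ := (hVmem b).mp hb
    apply Subtype.ext
    show QuotientGroup.mk' (Subgroup.center ↥N) l1 * QuotientGroup.mk' (Subgroup.center ↥N) l2 =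
      QuotientGroup.mk' (Subgroup.center ↥N) l2 * QuotientGroup.mk' (Subgroup.center ↥N) l1
    rw [← map_mul, ← map_mul]
    congr 1
    apply Subtype.ext
    exact hab _ hl1 _ hl2
  have hV : (L.subgroupOf N).map (QuotientGroup.mk' (Subgroup.center ↥N)) ≠ ⊥ := by
    intro hbot
    apply hLZ
    intro l hl
    have h1 : QuotientGroup.mk' (Subgroup.center ↥N) ⟨l, hLN hl⟩ ∈
        (L.subgroupOf N).map (QuotientGroup.mk' (Subgroup.center ↥N)) :=
      (hVmem _).mpr ⟨⟨l, hLN hl⟩, hl, rfl⟩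
    rw [hbot, Subgroup.mem_bot, hπ1] at h1
    exact h1
  have hLnorm : (L.subgroupOf N).Normal := by
    constructor
    intro l hl n
    rw [Subgroup.mem_subgroupOf] at hl ⊢
    exact hnorm n.1 n.2 l.1 hl
  have hVnorm : ((L.subgroupOf N).map (QuotientGroup.mk' (Subgroup.center ↥N))).Normal :=
    hLnorm.map _ (QuotientGroup.mk'_surjective _)
  have hAV : (R.subgroupOf N).map (QuotientGroup.mk' (Subgroup.center ↥N)) ≤
      Subgroup.normalizer
        (((L.subgroupOf N).map (QuotientGroup.mk' (Subgroup.center ↥N)) : Subgroup _) : Set _) := by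
    rw [Subgroup.normalizer_eq_top]
    exact le_top
  have hfp : ∀ a ∈ (R.subgroupOf N).map (QuotientGroup.mk' (Subgroup.center ↥N)), a ≠ 1 →
      (L.subgroupOf N).map (QuotientGroup.mk' (Subgroup.center ↥N)) ⊓
        Subgroup.centralizer {a} = ⊥ := by
    intro a ha ha1
    obtain ⟨t, ht, rfl⟩ := (hAmem a).mp ha
    rw [eq_bot_iff]
    intro v hv
    rw [Subgroup.mem_inf] at hv
    obtain ⟨l, hl, rfl⟩ := (hVmem v).mp hv.1
    rw [Subgroup.mem_bot, hπ1]
    have htZ : (t : G) ∉ ZN N := fun hc => ha1 ((hπ1 t).mpr hc)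
    apply hfpf t ht htZ l hl
    have hcomm' := mem_cent_singleton.mp hv.2
    have h1 : QuotientGroup.mk' (Subgroup.center ↥N) (t * l * t⁻¹ * l⁻¹) = 1 := by
      rw [map_mul, map_mul, map_mul, map_inv, map_inv, ← hcomm']; group
    exact (hπ1 _).mp h1
  have hAc : IsMulCommutative
      ((R.subgroupOf N).map (QuotientGroup.mk' (Subgroup.center ↥N))) := by
    refine ⟨⟨?_⟩⟩
    rintro ⟨a, ha⟩ ⟨b, hb⟩
    obtain ⟨t1, ht1, rfl⟩ := (hAmem a).mp ha
    obtain ⟨t2, ht2, rfl⟩ := (hAmem b).mp hb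
    apply Subtype.ext
    show QuotientGroup.mk' (Subgroup.center ↥N) t1 * QuotientGroup.mk' (Subgroup.center ↥N) t2 =
      QuotientGroup.mk' (Subgroup.center ↥N) t2 * QuotientGroup.mk' (Subgroup.center ↥N) t1
    have h1 : QuotientGroup.mk' (Subgroup.center ↥N) (t1 * t2 * t1⁻¹ * t2⁻¹) = 1 :=
      (hπ1 _).mpr (hcomm _ ht1 _ ht2)
    rw [map_mul, map_mul, map_mul, map_inv, map_inv] at h1
    calc QuotientGroup.mk' (Subgroup.center ↥N) t1 * QuotientGroup.mk' (Subgroup.center ↥N) t2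
        = (QuotientGroup.mk' (Subgroup.center ↥N) t1 * QuotientGroup.mk' (Subgroup.center ↥N) t2 *
            (QuotientGroup.mk' (Subgroup.center ↥N) t1)⁻¹ *
            (QuotientGroup.mk' (Subgroup.center ↥N) t2)⁻¹) *
            (QuotientGroup.mk' (Subgroup.center ↥N) t2 *
              QuotientGroup.mk' (Subgroup.center ↥N) t1) := by group
      _ = QuotientGroup.mk' (Subgroup.center ↥N) t2 *
            QuotientGroup.mk' (Subgroup.center ↥N) t1 := by rw [h1, one_mul]
  have hcyc : IsCyclic ((R.subgroupOf N).map (QuotientGroup.mk' (Subgroup.center ↥N))) :=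
    Cfsg.Agent.S0041.result _ _ hV hAV hfp (Or.inl hAc)
  have hexp : ∀ a ∈ (R.subgroupOf N).map (QuotientGroup.mk' (Subgroup.center ↥N)), a ^ r = 1 := by
    intro a ha
    obtain ⟨t, ht, rfl⟩ := (hAmem a).mp ha
    rw [← map_pow, hπ1]
    exact hpow _ ht
  have hAne : (R.subgroupOf N).map (QuotientGroup.mk' (Subgroup.center ↥N)) ≠ ⊥ := by
    intro hbot
    apply hRZ
    intro t ht
    have h1 : QuotientGroup.mk' (Subgroup.center ↥N) ⟨t, hRN ht⟩ ∈
        (R.subgroupOf N).map (QuotientGroup.mk' (Subgroup.center ↥N)) :=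
      (hAmem _).mpr ⟨⟨t, hRN ht⟩, ht, rfl⟩
    rw [hbot, Subgroup.mem_bot, hπ1] at h1
    exact h1
  have hcard : Nat.card ((R.subgroupOf N).map (QuotientGroup.mk' (Subgroup.center ↥N))) = r := by
    obtain ⟨g, hg⟩ := hcyc.exists_generator
    have h1 : orderOf g = Nat.card ((R.subgroupOf N).map (QuotientGroup.mk' (Subgroup.center ↥N))) :=
      orderOf_eq_card_of_forall_mem_zpowers hg
    have h2 : g ^ r = 1 := by
      apply Subtype.ext
      exact hexp g.1 g.2
    have h3 := orderOf_dvd_of_pow_eq_one h2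
    rw [h1] at h3
    rcases (Nat.dvd_prime hr).mp h3 with h4 | h4
    · exact absurd (Subgroup.card_eq_one.mp h4) hAne
    · exact h4
  rw [← hcard, ← Subgroup.relIndex_bot_left, ← Subgroup.relIndex_comap]
  have e3 : (⊥ : Subgroup (↥N ⧸ Subgroup.center ↥N)).comap
      (QuotientGroup.mk' (Subgroup.center ↥N)) = (ZN N).comap N.subtype := by
    ext n
    rw [Subgroup.mem_comap, Subgroup.mem_bot, hπ1, Subgroup.mem_comap]
    rfl
  rw [e3, Subgroup.relIndex_comap, Subgroup.map_subgroupOf_eq_of_le hRN]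

example : Cfsg.Agent.H43.MC.StCyc.{u} := cyc

end Cfsg.Agent.Helper55.MC
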