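import Cfsg.Agent.H43.MCDefs

/-!
# S3905-PGRP (piece of helper43's team project)

If `N/Z(N)` is a `p`-group (and `Hyp N`), then it is elementary abelian (`IntEA N p`).
-/

set_option autoImplicit false

namespace Cfsg.Agent.Helper55.MC

open Cfsg.Agent.H43.MC

universe u

theorem pgrp (hF5 : StF5.{u}) (hN : StNCond.{u}) (hCF : StCF.{u}) : StPGrp.{u} := by
  intro G _ _ N _ h p hp hpow
  -- key claim
  have key : ∀ x : G, x ∈ N →
      (∀ a ∈ N, ∀ b ∈ N, Commute (a * b * a⁻¹ * b⁻¹) x) ∧ (∀ a ∈ N, Commute (a ^ p) x) := by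
    intro x hxN
    by_cases hxZ : x ∈ Subgroup.centralizer (N : Set G)
    · have hc : ∀ g ∈ N, Commute g x := by
        intro g hg
        have := (mem_cent_set.mp hxZ) g hg
        exact this
      refine ⟨fun a ha b hb => hc _ ?_, fun a ha => hc _ (N.pow_mem ha p)⟩
      exact N.mul_mem (N.mul_mem (N.mul_mem ha hb) (N.inv_mem ha)) (N.inv_mem hb)
    · -- C := N ⊓ centralizer {x}
      have hCdef : ∀ g : G, g ∈ N ⊓ Subgroup.centralizer ({x} : Set G) ↔ g ∈ N ∧ Commute g x := by
        intro g
        rw [Subgroup.mem_inf, mem_cent_singleton]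
        exact Iff.rfl
      have hZC : ZN N ≤ N ⊓ Subgroup.centralizer ({x} : Set G) := by
        intro z hz
        rw [hCdef]
        refine ⟨hz.1, ?_⟩
        have := (mem_cent_set.mp hz.2) x hxN
        exact this.symm
      have hCN : N ⊓ Subgroup.centralizer ({x} : Set G) ≤ N := inf_le_left
      have hCne : N ⊓ Subgroup.centralizer ({x} : Set G) ≠ N := by
        intro heq
        apply hxZ
        rw [mem_cent_set]
        intro n hn
        have hn' : n ∈ N ⊓ Subgroup.centralizer ({x} : Set G) := by rw [heq]; exact hn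
        exact ((hCdef n).mp hn').2
      have hZnorm : ∀ t ∈ N, ∀ a ∈ ZN N, t * a * t⁻¹ ∈ ZN N := by
        intro t ht a ha
        have h1 : t * a = a * t := (mem_cent_set.mp ha.2) t ht
        have h2 : t * a * t⁻¹ = a := by rw [h1]; group
        rw [h2]; exact ha
      have hfirst : ∀ n ∈ N, ∀ c ∈ N, Commute c x → Commute (n * c * n⁻¹) x := by
        rcases hF5 G N h x hxN hxZ with h1 | h2
        · exact h1
        · exfalso
          obtain ⟨n, hnN, hnC, hnorm⟩ := hN G p hp (ZN N) (N ⊓ Subgroup.centralizer ({x} : Set G)) N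
            hZC hCN hCne hZnorm hpow
          apply hnC
          rw [hCdef]
          refine ⟨hnN, h2 n hnN ?_⟩
          intro c hcN hcx
          have := hnorm c ((hCdef c).mpr ⟨hcN, hcx⟩)
          exact ((hCdef _).mp this).2
      -- C is normal in G
      have hCnorm : (N ⊓ Subgroup.centralizer ({x} : Set G)).Normal := by
        constructor
        intro c hc g
        obtain ⟨n, hn, m, hm, rfl⟩ := gnm h hxN hxZ g
        rw [hCdef] at hc
        have hmx : Commute m x := by
          have := mem_cent_singleton.mp hm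
          exact this
        have h1 : m * c * m⁻¹ ∈ N := ‹N.Normal›.conj_mem c hc.1 m
        have h2 : Commute (m * c * m⁻¹) x := (hmx.mul_left hc.2).mul_left hmx.inv_left
        have h3 : n * m * c * (n * m)⁻¹ = n * (m * c * m⁻¹) * n⁻¹ := by group
        rw [h3, hCdef]
        exact ⟨‹N.Normal›.conj_mem _ h1 n, hfirst n hn _ h1 h2⟩
      have hpowC : ∀ b ∈ N, ∃ k : ℕ, b ^ (p ^ k) ∈ N ⊓ Subgroup.centralizer ({x} : Set G) := by
        intro b hb
        obtain ⟨k, hk⟩ := hpow b hb
        exact ⟨k, hZC hk⟩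
      have hchief : ∀ T : Subgroup G, T.Normal → N ⊓ Subgroup.centralizer ({x} : Set G) ≤ T →
          T ≤ N → T = N ⊓ Subgroup.centralizer ({x} : Set G) ∨ T = N := by
        intro T hT hCT hTN
        rcases f6 h hxN hxZ T hTN (fun m _ l hl => hT.conj_mem l hl m) with h1 | h2
        · left
          exact le_antisymm (le_inf hTN h1) hCT
        · right
          refine le_antisymm hTN ?_
          intro n hn
          obtain ⟨l, hl, c, hcN, hcx, rfl⟩ := h2 n hn
          exact T.mul_mem hl (hCT (Subgroup.mem_inf.mpr ⟨hcN, hcx⟩))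
      obtain ⟨hc1, hc2⟩ := hCF G p hp (N ⊓ Subgroup.centralizer ({x} : Set G)) N hCnorm ‹N.Normal›
        hCN hpowC hchief
      exact ⟨fun a ha b hb => ((hCdef _).mp (hc1 a ha b hb)).2,
        fun a ha => ((hCdef _).mp (hc2 a ha)).2⟩
  refine ⟨?_, ?_⟩
  · intro a ha b hb
    rw [mem_cent_set]
    intro n hn
    exact (((key n hn).1 a ha b hb).eq).symm
  · intro a ha
    rw [mem_cent_set]
    intro n hn
    exact (((key n hn).2 a ha).eq).symm

example (hF5 : Cfsg.Agent.H43.MC.StF5.{u}) (hN : Cfsg.Agent.H43.MC.StNCond.{u})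
    (hCF : Cfsg.Agent.H43.MC.StCF.{u}) : Cfsg.Agent.H43.MC.StPGrp.{u} :=
  pgrp hF5 hN hCF

end Cfsg.Agent.Helper55.MC
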