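import Mathlib
import Cfsg.Agent.H7.PsDefs
import Cfsg.Agent.H6.SpCenter

/-! S3664 team project (helper7): helpers for explicit elements of `PSp₆(3)`,
given as `6 × 6` matrices over `ZMod 3` indexed by `Fin 6`. -/

set_option autoImplicit false

namespace Cfsg.Agent.Helper55.Ps

open Matrix Cfsg.Agent.H7.Ps

/-- `6 × 6` matrices over `𝔽₃` indexed by `Fin 6` -/
abbrev M6 : Type := Matrix (Fin 6) (Fin 6) (ZMod 3)

/-- transport a `6 × 6` matrix to the index type `Fin 3 ⊕ Fin 3` -/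
def sub6 (M : M6) : Mat := M.submatrix finSumFinEquiv finSumFinEquiv

theorem sub6_mul (M N : M6) : sub6 (M * N) = sub6 M * sub6 N := by
  unfold sub6
  exact (Matrix.submatrix_mul_equiv M N _ _ _).symm

theorem sub6_one : sub6 1 = 1 := by
  unfold sub6
  exact Matrix.submatrix_one_equiv _

theorem sub6_neg (M : M6) : sub6 (-M) = - sub6 M := rfl

theorem sub6_transpose (M : M6) : sub6 Mᵀ = (sub6 M)ᵀ := rfl

theorem sub6_pow (M : M6) (k : ℕ) : sub6 (M ^ k) = sub6 M ^ k := by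
  induction k with
  | zero => rw [pow_zero, pow_zero, sub6_one]
  | succ k ih => rw [pow_succ, pow_succ, sub6_mul, ih]

theorem sub6_inj {M N : M6} (h : sub6 M = sub6 N) : M = N := by
  ext i j
  have := congrFun (congrFun h (finSumFinEquiv.symm i)) (finSumFinEquiv.symm j)
  simpa [sub6] using this

/-- the form matrix `J` on `Fin 6` -/
def J6 : M6 := !![0,0,0,2,0,0; 0,0,0,0,2,0; 0,0,0,0,0,2; 1,0,0,0,0,0; 0,1,0,0,0,0; 0,0,1,0,0,0]

theorem sub6_J : sub6 J6 = Matrix.J (Fin 3) (ZMod 3) := by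
  ext i j
  rcases i with i | i <;> rcases j with j | j <;> fin_cases i <;> fin_cases j <;> rfl

theorem sub6_mem (M : M6) (h : M * J6 * Mᵀ = J6) : sub6 M ∈ Sp := by
  rw [SymplecticGroup.mem_iff, ← sub6_J, ← sub6_transpose, ← sub6_mul, ← sub6_mul, h]

theorem orderOf_two_primes {G : Type*} [Group G] (x : G) (p q : ℕ) (hp : p.Prime) (hq : q.Prime)
    (h1 : x ^ (p * q) = 1) (h2 : x ^ p ≠ 1) (h3 : x ^ q ≠ 1) : orderOf x = p * q := by
  apply orderOf_eq_of_pow_and_pow_div_prime (Nat.mul_pos hp.pos hq.pos) h1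
  intro r hr hdvd
  rcases (Nat.Prime.dvd_mul hr).1 hdvd with h | h
  · have := (Nat.prime_dvd_prime_iff_eq hr hp).1 h
    subst this
    rw [Nat.mul_div_cancel_left _ hr.pos]
    exact h3
  · have := (Nat.prime_dvd_prime_iff_eq hr hq).1 h
    subst this
    rw [Nat.mul_div_cancel _ hr.pos]
    exact h2

theorem psp_pow_eq_one_iff (A : ↥Sp) (k : ℕ) :
    (QuotientGroup.mk A : L) ^ k = 1 ↔ (A.1 ^ k = 1 ∨ A.1 ^ k = -1) := by
  rw [← QuotientGroup.mk_pow, QuotientGroup.eq_one_iff]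
  have hc := Cfsg.Agent.H6.center_symplectic_eq (l := Fin 3) (F := ZMod 3)
  rw [← SetLike.mem_coe, hc]
  simp only [Set.mem_insert_iff, Set.mem_singleton_iff]
  constructor
  · rintro (h | h)
    · left
      have h' := congrArg Subtype.val h
      simpa using h'
    · right
      have h' := congrArg Subtype.val h
      simpa [Cfsg.Agent.H6.spNegOne] using h'
  · rintro (h | h)
    · left
      apply Subtype.ext
      simpa using h
    · right
      apply Subtype.ext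
      simpa [Cfsg.Agent.H6.spNegOne] using h

theorem sub6_pow_eq_one_iff (M : M6) (k : ℕ) : sub6 M ^ k = 1 ↔ M ^ k = 1 := by
  rw [← sub6_pow]
  constructor
  · intro h
    apply sub6_inj
    rw [h, sub6_one]
  · intro h
    rw [h, sub6_one]

theorem sub6_pow_eq_neg_one_iff (M : M6) (k : ℕ) : sub6 M ^ k = -1 ↔ M ^ k = -1 := by
  rw [← sub6_pow]
  constructor
  · intro h
    apply sub6_inj
    rw [h, sub6_neg, sub6_one]
  · intro h
    rw [h, sub6_neg, sub6_one]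

/-- an element of order `p * q` of `PSp₆(3)` from an explicit matrix -/
theorem exists_order_mul (M : M6) (hM : M * J6 * Mᵀ = J6) (p q : ℕ) (hp : p.Prime)
    (hq : q.Prime) (h1 : M ^ (p * q) = 1 ∨ M ^ (p * q) = -1)
    (h2 : M ^ p ≠ 1) (h2' : M ^ p ≠ -1) (h3 : M ^ q ≠ 1) (h3' : M ^ q ≠ -1) :
    ∃ g : L, orderOf g = p * q := by
  refine ⟨QuotientGroup.mk (⟨sub6 M, sub6_mem M hM⟩ : ↥Sp),
    orderOf_two_primes _ p q hp hq ?_ ?_ ?_⟩
  · rw [psp_pow_eq_one_iff]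
    show sub6 M ^ (p * q) = 1 ∨ sub6 M ^ (p * q) = -1
    rw [sub6_pow_eq_one_iff, sub6_pow_eq_neg_one_iff]
    exact h1
  · rw [Ne, psp_pow_eq_one_iff]
    show ¬ (sub6 M ^ p = 1 ∨ sub6 M ^ p = -1)
    rw [sub6_pow_eq_one_iff, sub6_pow_eq_neg_one_iff]
    exact fun h => h.elim h2 h2'
  · rw [Ne, psp_pow_eq_one_iff]
    show ¬ (sub6 M ^ q = 1 ∨ sub6 M ^ q = -1)
    rw [sub6_pow_eq_one_iff, sub6_pow_eq_neg_one_iff]
    exact fun h => h.elim h3 h3'

/-- an element of prime order `p` of `PSp₆(3)` from an explicit matrix -/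
theorem exists_order_prime (M : M6) (hM : M * J6 * Mᵀ = J6) (p : ℕ) (hp : p.Prime)
    (h1 : M ^ p = 1 ∨ M ^ p = -1) (h2 : M ≠ 1) (h2' : M ≠ -1) :
    ∃ g : L, orderOf g = p := by
  have : Fact p.Prime := ⟨hp⟩
  refine ⟨QuotientGroup.mk (⟨sub6 M, sub6_mem M hM⟩ : ↥Sp), orderOf_eq_prime ?_ ?_⟩
  · rw [psp_pow_eq_one_iff]
    show sub6 M ^ p = 1 ∨ sub6 M ^ p = -1
    rw [sub6_pow_eq_one_iff, sub6_pow_eq_neg_one_iff]
    exact h1
  · intro h
    have h' : (QuotientGroup.mk (⟨sub6 M, sub6_mem M hM⟩ : ↥Sp) : L) ^ 1 = 1 := by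
      rw [pow_one]
      exact h
    rw [psp_pow_eq_one_iff] at h'
    have h'' : sub6 M ^ 1 = 1 ∨ sub6 M ^ 1 = -1 := h'
    rw [sub6_pow_eq_one_iff, sub6_pow_eq_neg_one_iff, pow_one] at h''
    exact h''.elim h2 h2'

end Cfsg.Agent.Helper55.Ps
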