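import Mathlib
import Cfsg.Agent.H7.PsDefs
import Cfsg.Agent.Helper55.PsBase

/-! S3664 team project (helper7): piece PS-EX13 — an explicit element of `PSp₆(3)`. -/

set_option autoImplicit false

namespace Cfsg.Agent.Helper55.Ps.Ex13

open Matrix Cfsg.Agent.H7.Ps Cfsg.Agent.Helper55.Ps

/-- the matrix -/
def m : M6 := !![0, 0, 1, 0, 0, 0; 1, 0, 0, 0, 0, 0; 0, 1, 2, 0, 0, 0; 0, 0, 0, 0, 1, 1; 0, 0, 0, 1, 0, 0; 0, 0, 0, 0, 1, 0]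

/-- its power `2` -/
def m2 : M6 := !![0, 1, 2, 0, 0, 0; 0, 0, 1, 0, 0, 0; 1, 2, 1, 0, 0, 0; 0, 0, 0, 1, 1, 0; 0, 0, 0, 0, 1, 1; 0, 0, 0, 1, 0, 0]

/-- its power `4` -/
def m4 : M6 := !![2, 1, 0, 0, 0, 0; 1, 2, 1, 0, 0, 0; 1, 0, 2, 0, 0, 0; 0, 0, 0, 1, 2, 1; 0, 0, 0, 1, 1, 1; 0, 0, 0, 1, 1, 0]

/-- its power `5` -/
def m5 : M6 := !![1, 0, 2, 0, 0, 0; 2, 1, 0, 0, 0, 0; 0, 2, 2, 0, 0, 0; 0, 0, 0, 2, 2, 1; 0, 0, 0, 1, 2, 1; 0, 0, 0, 1, 1, 1]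

/-- its power `8` -/
def m8 : M6 := !![2, 1, 1, 0, 0, 0; 2, 2, 1, 0, 0, 0; 1, 1, 1, 0, 0, 0; 0, 0, 0, 1, 2, 0; 0, 0, 0, 0, 1, 2; 0, 0, 0, 2, 0, 2]

/-- its power `13` -/
def m13 : M6 := !![1, 0, 0, 0, 0, 0; 0, 1, 0, 0, 0, 0; 0, 0, 1, 0, 0, 0; 0, 0, 0, 1, 0, 0; 0, 0, 0, 0, 1, 0; 0, 0, 0, 0, 0, 1]

theorem m_symp : m * J6 * mᵀ = J6 := by decide

theorem mul_2 : m * m = m2 := by decide

theorem pow_2 : m ^ 2 = m2 := by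
  have h : m ^ 2 = m ^ 1 * m ^ 1 := pow_add m 1 1
  rw [h]
  rw [pow_one]
  exact mul_2

theorem mul_4 : m2 * m2 = m4 := by decide

theorem pow_4 : m ^ 4 = m4 := by
  have h : m ^ 4 = m ^ 2 * m ^ 2 := pow_add m 2 2
  rw [h]
  rw [pow_2]
  exact mul_4

theorem mul_5 : m4 * m = m5 := by decide

theorem pow_5 : m ^ 5 = m5 := by
  have h : m ^ 5 = m ^ 4 * m ^ 1 := pow_add m 4 1
  rw [h]
  rw [pow_4]
  rw [pow_one]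
  exact mul_5

theorem mul_8 : m4 * m4 = m8 := by decide

theorem pow_8 : m ^ 8 = m8 := by
  have h : m ^ 8 = m ^ 4 * m ^ 4 := pow_add m 4 4
  rw [h]
  rw [pow_4]
  exact mul_8

theorem mul_13 : m8 * m5 = m13 := by decide

theorem pow_13 : m ^ 13 = m13 := by
  have h : m ^ 13 = m ^ 8 * m ^ 5 := pow_add m 8 5
  rw [h]
  rw [pow_8]
  rw [pow_5]
  exact mul_13

theorem ex13 : StEx13 := by
  have h1 : m ^ 13 = 1 ∨ m ^ 13 = -1 := by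
    rw [pow_13]
    exact Or.inl (by decide)
  have h2 : m ≠ 1 := by decide
  have h2' : m ≠ -1 := by decide
  exact exists_order_prime m m_symp 13 (by norm_num) h1 h2 h2'

end Cfsg.Agent.Helper55.Ps.Ex13

namespace Cfsg.Agent.Helper55.Ps

/-- [PS-EX13] -/
theorem ex13 : Cfsg.Agent.H7.Ps.StEx13 := Ex13.ex13

end Cfsg.Agent.Helper55.Ps

example : Cfsg.Agent.H7.Ps.StEx13 := Cfsg.Agent.Helper55.Ps.ex13
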