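import Mathlib
import Cfsg.Agent.H7.PsDefs
import Cfsg.Agent.Helper55.PsBase

/-! S3664 team project (helper7): piece PS-EX14 — an explicit element of `PSp₆(3)`. -/

set_option autoImplicit false

namespace Cfsg.Agent.Helper55.Ps.Ex14

open Matrix Cfsg.Agent.H7.Ps Cfsg.Agent.Helper55.Ps

/-- the matrix -/
def m : M6 := !![1, 0, 0, 1, 2, 1; 0, 1, 2, 1, 2, 0; 0, 0, 1, 1, 2, 2; 1, 2, 1, 1, 0, 1; 2, 2, 0, 0, 1, 0; 0, 2, 2, 0, 1, 0]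

/-- its power `2` -/
def m2 : M6 := !![0, 2, 0, 2, 2, 2; 2, 1, 2, 1, 2, 2; 2, 1, 0, 2, 0, 0; 2, 0, 2, 2, 0, 1; 1, 1, 1, 1, 0, 2; 2, 1, 0, 1, 0, 1]

/-- its power `3` -/
def m3 : M6 := !![0, 2, 1, 1, 2, 2; 1, 2, 0, 0, 2, 1; 1, 2, 1, 2, 0, 1; 1, 0, 0, 0, 0, 2; 2, 1, 2, 1, 2, 1; 0, 2, 2, 1, 1, 0]

/-- its power `4` -/
def m4 : M6 := !![2, 0, 1, 1, 1, 0; 2, 2, 0, 0, 0, 1; 0, 2, 0, 0, 0, 2; 1, 1, 1, 1, 1, 1; 1, 0, 1, 0, 1, 1; 0, 0, 1, 2, 0, 2]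

/-- its power `6` -/
def m6 : M6 := !![2, 0, 0, 0, 1, 1; 0, 1, 1, 1, 2, 0; 2, 1, 1, 1, 1, 0; 0, 0, 2, 0, 1, 2; 2, 2, 1, 0, 2, 2; 1, 0, 1, 2, 0, 1]

/-- its power `7` -/
def m7 : M6 := !![1, 1, 2, 2, 0, 2; 2, 1, 1, 0, 0, 0; 2, 2, 1, 2, 0, 2; 2, 0, 0, 2, 1, 1; 0, 1, 0, 2, 2, 1; 0, 0, 2, 1, 2, 2]

/-- its power `8` -/
def m8 : M6 := !![0, 0, 1, 0, 1, 1; 2, 1, 0, 1, 2, 1; 1, 1, 2, 1, 0, 0; 0, 2, 1, 1, 0, 1; 0, 2, 0, 0, 2, 2; 2, 1, 1, 0, 2, 2]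

/-- its power `14` -/
def m14 : M6 := !![2, 0, 0, 0, 0, 0; 0, 2, 0, 0, 0, 0; 0, 0, 2, 0, 0, 0; 0, 0, 0, 2, 0, 0; 0, 0, 0, 0, 2, 0; 0, 0, 0, 0, 0, 2]

theorem m_symp : m * J6 * mᵀ = J6 := by decide

theorem mul_2 : m * m = m2 := by decide

theorem pow_2 : m ^ 2 = m2 := by
  have h : m ^ 2 = m ^ 1 * m ^ 1 := pow_add m 1 1
  rw [h]
  rw [pow_one]
  exact mul_2

theorem mul_3 : m2 * m = m3 := by decide

theorem pow_3 : m ^ 3 = m3 := by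
  have h : m ^ 3 = m ^ 2 * m ^ 1 := pow_add m 2 1
  rw [h]
  rw [pow_2]
  rw [pow_one]
  exact mul_3

theorem mul_4 : m2 * m2 = m4 := by decide

theorem pow_4 : m ^ 4 = m4 := by
  have h : m ^ 4 = m ^ 2 * m ^ 2 := pow_add m 2 2
  rw [h]
  rw [pow_2]
  exact mul_4

theorem mul_6 : m4 * m2 = m6 := by decide

theorem pow_6 : m ^ 6 = m6 := by
  have h : m ^ 6 = m ^ 4 * m ^ 2 := pow_add m 4 2
  rw [h]
  rw [pow_4]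
  rw [pow_2]
  exact mul_6

theorem mul_7 : m4 * m3 = m7 := by decide

theorem pow_7 : m ^ 7 = m7 := by
  have h : m ^ 7 = m ^ 4 * m ^ 3 := pow_add m 4 3
  rw [h]
  rw [pow_4]
  rw [pow_3]
  exact mul_7

theorem mul_8 : m4 * m4 = m8 := by decide

theorem pow_8 : m ^ 8 = m8 := by
  have h : m ^ 8 = m ^ 4 * m ^ 4 := pow_add m 4 4
  rw [h]
  rw [pow_4]
  exact mul_8

theorem mul_14 : m8 * m6 = m14 := by decide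

theorem pow_14 : m ^ 14 = m14 := by
  have h : m ^ 14 = m ^ 8 * m ^ 6 := pow_add m 8 6
  rw [h]
  rw [pow_8]
  rw [pow_6]
  exact mul_14

theorem ex14 : StEx14 := by
  have h1 : m ^ (2 * 7) = 1 ∨ m ^ (2 * 7) = -1 := by
    rw [show (2 * 7 : ℕ) = 14 from rfl, pow_14]
    exact Or.inr (by decide)
  have h2 : m ^ 2 ≠ 1 := by
    rw [pow_2]
    decide
  have h2' : m ^ 2 ≠ -1 := by
    rw [pow_2]
    decide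
  have h3 : m ^ 7 ≠ 1 := by
    rw [pow_7]
    decide
  have h3' : m ^ 7 ≠ -1 := by
    rw [pow_7]
    decide
  exact exists_order_mul m m_symp 2 7 (by norm_num) (by norm_num) h1 h2 h2' h3 h3'

end Cfsg.Agent.Helper55.Ps.Ex14

namespace Cfsg.Agent.Helper55.Ps

/-- [PS-EX14] -/
theorem ex14 : Cfsg.Agent.H7.Ps.StEx14 := Ex14.ex14

end Cfsg.Agent.Helper55.Ps

example : Cfsg.Agent.H7.Ps.StEx14 := Cfsg.Agent.Helper55.Ps.ex14
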