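import Mathlib
import Cfsg.Agent.H97.SuLDefs

/-!
# SuL-ZMOVE (piece of helper97's team project S2334/S2335)

Moving a root-group eigenvector by an element scaling `e`.
-/

set_option autoImplicit false

namespace Cfsg.Agent.Helper55.SuL

open Module Cfsg.Agent.H17 Cfsg.Agent.H97.SuL

universe u

/-- `suAct` fixes `0`. -/
theorem suAct_zero' {F : Type u} [Field F] [Fintype F] {q n : ℕ} (t : ↥(Cfsg.SU n F q)) :
    suAct t (0 : Fin n → F) = 0 := by
  have h := suAct_smul t (0 : F) (0 : Fin n → F)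
  rw [zero_smul, zero_smul] at h
  exact h

/-- The norm `s ^ (q + 1)` is fixed by the Frobenius. -/
theorem norm_frob {F : Type u} [Field F] [Fintype F] {q : ℕ} (hF : Fintype.card F = q ^ 2)
    (a : F) : (a ^ (q + 1)) ^ q = a ^ (q + 1) := by
  have h1 : (a ^ (q + 1)) ^ q = (a ^ q) ^ q * a ^ q := by ring
  rw [h1, frob_frob hF]; ring

/-- `ρ (g * t) v = ρ g (ρ t v)`. -/
theorem rho_mul_apply {G : Type*} [Monoid G] {V : Type*} [AddCommMonoid V] [Module ℂ V]
    (ρ : Representation ℂ G V) (g t : G) (v : V) : ρ (g * t) v = ρ g (ρ t v) := by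
  rw [map_mul]; rfl

theorem zMove (hEC : StEConj.{u}) (hES : StEScal.{u}) : StZMove.{u} := by
  intro F _ _ q n hF e V _ _ _ ρ lam v t s hs hte hv
  rw [mem_zEig] at hv ⊢
  intro c g hc hg
  show ρ g (ρ t v) = lam ((s ^ (q + 1))⁻¹ * c) • ρ t v
  have hte' : suAct t⁻¹ e = s⁻¹ • e := by
    have h1 : suAct t⁻¹ (suAct t e) = e := suAct_inv_apply t e
    rw [hte, suAct_smul] at h1
    have h2 : s⁻¹ • (s • suAct t⁻¹ e) = s⁻¹ • e := by rw [h1]
    rw [smul_smul, inv_mul_cancel₀ hs, one_smul] at h2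
    exact h2
  have h1 := hEC hF t⁻¹ g e 0 c hg
  rw [hte', suAct_zero', inv_inv] at h1
  have h2 := hES hF s⁻¹ e c (t⁻¹ * g * t) h1
  have hc' : ((s⁻¹) ^ (q + 1) * c) ^ q = -((s⁻¹) ^ (q + 1) * c) := by
    rw [mul_pow, norm_frob hF, hc, mul_neg]
  have h3 := hv _ _ hc' h2
  have e1 : g * t = t * (t⁻¹ * g * t) := by group
  rw [← rho_mul_apply, e1, rho_mul_apply, h3, map_smul, inv_pow]

example (hEC : Cfsg.Agent.H97.SuL.StEConj.{u}) (hES : Cfsg.Agent.H97.SuL.StEScal.{u}) :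
    Cfsg.Agent.H97.SuL.StZMove.{u} := zMove hEC hES

end Cfsg.Agent.Helper55.SuL
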