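import Mathlib
import Cfsg.Agent.H97.SuLDefs
import Cfsg.Agent.Helper55.SuLZMove

/-!
# SuL-TFIX (piece of helper97's team project S2334/S2335)

Step (II): a vector fixed by the root group of `e₁` and not by that of `e₂`.
-/

set_option autoImplicit false

namespace Cfsg.Agent.Helper55.SuL

open Module Cfsg.Agent.H17 Cfsg.Agent.H97.SuL

universe u

/-- Existence of the root elements `E(e, 0, c)`, `c ∈ K`. -/
theorem ex_root {F : Type u} [Field F] [Fintype F] {q n : ℕ} (hF : Fintype.card F = q ^ 2)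
    (e : Fin n → F) (hee : Cfsg.hermForm n F q e e = 0) (c : F) (hc : c ^ q = -c) :
    ∃ g : ↥(Cfsg.SU n F q), IsE e 0 c g := by
  obtain ⟨E, hE⟩ := ex_E hF e 0 c hee (hermForm_zero_left n e)
    (by rw [hc, hermForm_zero_left]; ring)
  exact ⟨E, hE⟩

/-- Existence of the Heisenberg elements `E(e, a, 0)` for isotropic `a ⟂ e`. -/
theorem ex_heis {F : Type u} [Field F] [Fintype F] {q n : ℕ} (hF : Fintype.card F = q ^ 2)
    (e a : Fin n → F) (hee : Cfsg.hermForm n F q e e = 0) (hae : Cfsg.hermForm n F q a e = 0)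
    (haa : Cfsg.hermForm n F q a a = 0) : ∃ g : ↥(Cfsg.SU n F q), IsE e a 0 g := by
  have hq := two_le_of_card_sq hF
  obtain ⟨E, hE⟩ := ex_E hF e a 0 hee hae (by rw [zero_pow (by omega), haa]; ring)
  exact ⟨E, hE⟩

/-- A representation of a group acts injectively. -/
theorem rho_ne_zero {G : Type*} [Group G] {V : Type*} [AddCommGroup V] [Module ℂ V]
    (ρ : Representation ℂ G V) (g : G) {v : V} (hv : v ≠ 0) : ρ g v ≠ 0 := by
  intro h
  apply hv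
  have h1 : ρ g⁻¹ (ρ g v) = v := by
    rw [← rho_mul_apply, inv_mul_cancel, map_one]; rfl
  rw [← h1, h, map_zero]

theorem tFix (hJ : StJoint.{u}) (hComm : StComm.{u}) (hCS : StCSolve.{u}) (hZM : StZMult.{u})
    (hAM : StAlMult.{u}) (hAMove : StAMove.{u}) : StTFix.{u} := by
  intro F _ _ q n hF e₁ e₂ f₁ h11 h22 h12 hff h1f hf2 V _ _ _ ρ hNT
  obtain ⟨v, lam, mu, al, hv0, hvlam, hvmu, hal, c₀, hc₀, hlamc₀⟩ :=
    hJ hF e₁ e₂ h11 h22 h12 ρ hNT
  obtain ⟨hlam0, hlamadd⟩ := hZM hF e₂ h22 ρ lam v hv0 hvlam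
  obtain ⟨hmu0, hmuadd⟩ := hZM hF e₁ h11 ρ mu v hv0 hvmu
  obtain ⟨hal0, haladd⟩ := hAM hF e₁ e₂ h11 h22 h12 ρ al v hv0 hal
  obtain ⟨β, hβ⟩ := hCS hF lam mu al hlam0 hlamadd ⟨c₀, hc₀, hlamc₀⟩ hmu0 hmuadd hal0 haladd
  have hβf2 : Cfsg.hermForm n F q (β • f₁) e₂ = 0 := by
    rw [hermForm_smul_left, hf2, mul_zero]
  have hβff : Cfsg.hermForm n F q (β • f₁) (β • f₁) = 0 := by
    rw [hermForm_smul_left, hermForm_smul_right, hff, mul_zero, mul_zero]
  obtain ⟨g, hg⟩ := ex_heis hF e₂ (β • f₁) h22 hβf2 hβff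
  obtain ⟨zc, hzc⟩ := ex_root hF e₂ h22 c₀ hc₀
  refine ⟨ρ g v, ?_, c₀, zc, hc₀, hzc, ?_⟩
  · rw [mem_zEig]
    intro d τ hd hτ
    show ρ τ (ρ g v) = (1 : ℂ) • ρ g v
    have h1 : Cfsg.hermForm n F q ((d * β) • e₁) e₂ = 0 := by
      rw [hermForm_smul_left, h12, mul_zero]
    have h2 : Cfsg.hermForm n F q ((d * β) • e₁) ((d * β) • e₁) = 0 := by
      rw [hermForm_smul_left, hermForm_smul_right, h11, mul_zero, mul_zero]
    obtain ⟨a, ha⟩ := ex_heis hF e₂ ((d * β) • e₁) h22 h1 h2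
    have hdβ : (d * β ^ (q + 1)) ^ q = -(d * β ^ (q + 1)) := by
      rw [mul_pow, norm_frob hF, hd, neg_mul]
    obtain ⟨z, hz⟩ := ex_root hF e₂ h22 (d * β ^ (q + 1)) hdβ
    have hcomm := hComm hF e₁ e₂ f₁ β d τ g a z h11 h22 h12 hff h1f hf2 hd hτ hg ha hz
    have hz' := (mem_zEig ρ e₂ lam v).mp hvlam _ z hdβ hz
    have ha' := hal (d * β) a ha
    have hτ' := (mem_zEig ρ e₁ mu v).mp hvmu d τ hd hτ
    rw [← rho_mul_apply, hcomm, rho_mul_apply, rho_mul_apply, rho_mul_apply]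
    simp only [hz', ha', hτ', map_smul, smul_smul]
    congr 1
    rw [← hβ d hd]; ring
  · have h0l : Cfsg.hermForm n F q (0 : Fin n → F) e₂ = 0 := hermForm_zero_left n e₂
    have hcoef : Cfsg.hermForm n F q 0 (β • f₁) - Cfsg.hermForm n F q (β • f₁) 0 = 0 := by
      rw [hermForm_zero_left, hermForm_zero_right n hF, sub_zero]
    have hone : IsE e₂ 0 (Cfsg.hermForm n F q 0 (β • f₁) - Cfsg.hermForm n F q (β • f₁) 0)
        (1 : ↥(Cfsg.SU n F q)) := by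
      rw [hcoef]
      intro z'
      rw [suAct_one]
      simp [hermForm_zero_right n hF]
    have hmv := hAMove hF e₂ 0 (β • f₁) c₀ 0 zc g 1 h22 h0l hβf2 hzc hg hone
    rw [mul_one] at hmv
    intro hcontra
    rw [← rho_mul_apply, hmv, rho_mul_apply, (mem_zEig ρ e₂ lam v).mp hvlam c₀ zc hc₀ hzc,
      map_smul] at hcontra
    have hx0 : ρ g v ≠ 0 := rho_ne_zero ρ g hv0
    have h3 : (lam c₀ - 1) • ρ g v = 0 := by rw [sub_smul, hcontra, one_smul, sub_self]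
    rcases smul_eq_zero.mp h3 with h | h
    · exact hlamc₀ (sub_eq_zero.mp h)
    · exact hx0 h

example (hJ : Cfsg.Agent.H97.SuL.StJoint.{u}) (hComm : Cfsg.Agent.H97.SuL.StComm.{u})
    (hCS : Cfsg.Agent.H97.SuL.StCSolve.{u}) (hZM : Cfsg.Agent.H97.SuL.StZMult.{u})
    (hAM : Cfsg.Agent.H97.SuL.StAlMult.{u}) (hAMove : Cfsg.Agent.H97.SuL.StAMove.{u}) :
    Cfsg.Agent.H97.SuL.StTFix.{u} := tFix hJ hComm hCS hZM hAM hAMove

end Cfsg.Agent.Helper55.SuL
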