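import Mathlib
import Cfsg.Agent.H97.SuLDefs
import Cfsg.Agent.Helper55.SuLZMove
import Cfsg.Agent.Helper55.SuLTFix

/-!
# SuL-CT (piece of helper97's team project S2334/S2335)

Step (IV): if the root group of `e₂` acts nontrivially on `C_V(Z_e)`, then
`dim C_V(Z_e) ≥ q - 1`.
-/

set_option autoImplicit false

namespace Cfsg.Agent.Helper55.SuL

open Module Cfsg.Agent.H17 Cfsg.Agent.H97.SuL

universe u

theorem ct (hT2 : StTor2.{u}) (hZC : StZChar.{u}) (hZMv : StZMove.{u}) (hZM : StZMult.{u})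
    (hZI : StZInj.{u}) (hEn : StEnum.{u}) (hRI : StRInd.{u}) (hEC : StEConj.{u}) :
    StCT.{u} := by
  intro F _ _ q n hF e f e₂ f₂ hee hff hef h22 hf2f2 h2f2 he2 hef2 hfe2 hff2 V _ _ _ ρ hx
  obtain ⟨x₀, hx₀C, c₁, g₁, hc₁, hg₁, hx₀⟩ := hx
  -- `C` is stable under the root group of `e₂`
  have hstab : ∀ (c : F) (g : ↥(Cfsg.SU n F q)), c ^ q = -c → IsE e₂ 0 c g →
      ∀ x ∈ zEig ρ e (fun _ => (1 : ℂ)), ρ g x ∈ zEig ρ e (fun _ => (1 : ℂ)) := by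
    intro c g hc hg x hxC
    rw [mem_zEig] at hxC ⊢
    intro d τ hd hτ
    show ρ τ (ρ g x) = (1 : ℂ) • ρ g x
    have hge : suAct g e = e := by
      rw [hg e, he2, hermForm_zero_right n hF]; simp
    have hge' : suAct g⁻¹ e = e := by
      have h1 := suAct_inv_apply g e
      rw [hge] at h1; exact h1
    have h1 := hEC hF g⁻¹ τ e 0 d hτ
    rw [hge', suAct_zero', inv_inv] at h1
    have h2 : ρ (g⁻¹ * τ * g) x = (1 : ℂ) • x := hxC d (g⁻¹ * τ * g) hd h1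
    have e1 : τ * g = g * (g⁻¹ * τ * g) := by group
    rw [← rho_mul_apply, e1, rho_mul_apply, h2, map_smul]
  obtain ⟨mu, v, hv0, hvC, hvmu, c₂, hc₂, hmuc₂⟩ :=
    hZC hF e₂ h22 ρ (zEig ρ e (fun _ => (1 : ℂ))) hstab ⟨c₁, g₁, hc₁, hg₁, x₀, hx₀C, hx₀⟩
  obtain ⟨hmu0, hmuadd⟩ := hZM hF e₂ h22 ρ mu v hv0 hvmu
  obtain ⟨fe, hfe_inj, hfe⟩ := hEn hF
  have hti : ∀ i : Fin (q - 1), ∃ w : V, w ≠ 0 ∧ w ∈ zEig ρ e (fun _ => (1 : ℂ)) ∧
      w ∈ zEig ρ e₂ (fun c => mu (fe i * c)) := by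
    intro i
    obtain ⟨hfi, hfi0⟩ := hfe i
    have hr0 : (fe i)⁻¹ ≠ 0 := inv_ne_zero hfi0
    have hrq : (fe i)⁻¹ ^ q = (fe i)⁻¹ := by rw [inv_pow, hfi]
    obtain ⟨s, hs⟩ := Cfsg.Agent.H17.exists_norm_eq (frobHom hF) (frobHom_ne_id hF)
      (frobHom_invol hF) (fe i)⁻¹ hr0 (by rw [frobHom_apply]; exact hrq)
    rw [frobHom_apply] at hs
    have hs0 : s ≠ 0 := by
      rintro rfl
      rw [zero_mul] at hs
      exact hr0 hs.symm
    have hsN : s ^ (q + 1) = (fe i)⁻¹ := by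
      rw [pow_succ, mul_comm]; exact hs
    obtain ⟨t, hte, hte₂⟩ :=
      hT2 hF e f e₂ f₂ hee hff hef h22 hf2f2 h2f2 he2 hef2 hfe2 hff2 s hs0
    refine ⟨ρ t v, rho_ne_zero ρ t hv0, ?_, ?_⟩
    · have h1 := hZMv hF e ρ (fun _ => (1 : ℂ)) v t s⁻¹ (inv_ne_zero hs0) hte hvC
      exact h1
    · have h1 := hZMv hF e₂ ρ mu v t s hs0 hte₂ hvmu
      rw [hsN, inv_inv] at h1
      exact h1
  choose w hw0 hwC hwmu using hti
  have hinj : Function.Injective (fun (i : Fin (q - 1))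
      (p : {p : F × ↥(Cfsg.SU n F q) // p.1 ^ q = -p.1 ∧ IsE e₂ 0 p.1 p.2}) =>
      mu (fe i * p.1.1)) := by
    intro i i' hii
    by_contra hne
    have hfne : fe i ≠ fe i' := fun h => hne (hfe_inj h)
    obtain ⟨c', hc', hmune⟩ := hZI hF mu hmu0 hmuadd ⟨c₂, hc₂, hmuc₂⟩ (fe i) (fe i')
      (hfe i).1 (hfe i').1 hfne
    obtain ⟨g', hg'⟩ := ex_root hF e₂ h22 c' hc'
    have h1 := congrFun hii ⟨(c', g'), hc', hg'⟩
    exact hmune h1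
  have key := hRI (B := {p : F × ↥(Cfsg.SU n F q) // p.1 ^ q = -p.1 ∧ IsE e₂ 0 p.1 p.2})
    (fun p => ρ p.1.2) (fun (i : Fin (q - 1)) p => mu (fe i * p.1.1)) hinj
    (fun i => Submodule.span ℂ {w i})
    (by
      intro i
      rw [Submodule.span_le, Set.singleton_subset_iff]
      show w i ∈ Cfsg.Agent.H44.eigSub _ _
      rw [Cfsg.Agent.H44.mem_eigSub]
      intro p
      exact (mem_zEig ρ e₂ _ (w i)).mp (hwmu i) p.1.1 p.1.2 p.2.1 p.2.2)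
    (zEig ρ e (fun _ => (1 : ℂ)))
    (by
      intro i
      rw [Submodule.span_le, Set.singleton_subset_iff]
      exact hwC i)
  have hsum : ∑ i : Fin (q - 1), finrank ℂ (Submodule.span ℂ {w i}) = q - 1 := by
    rw [Finset.sum_congr rfl (fun i _ => finrank_span_singleton (hw0 i))]
    simp
  rw [hsum] at key
  exact key

example (hT2 : Cfsg.Agent.H97.SuL.StTor2.{u}) (hZC : Cfsg.Agent.H97.SuL.StZChar.{u})
    (hZMv : Cfsg.Agent.H97.SuL.StZMove.{u}) (hZM : Cfsg.Agent.H97.SuL.StZMult.{u})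
    (hZI : Cfsg.Agent.H97.SuL.StZInj.{u}) (hEn : Cfsg.Agent.H97.SuL.StEnum.{u})
    (hRI : Cfsg.Agent.H97.SuL.StRInd.{u}) (hEC : Cfsg.Agent.H97.SuL.StEConj.{u}) :
    Cfsg.Agent.H97.SuL.StCT.{u} := ct hT2 hZC hZMv hZM hZI hEn hRI hEC

end Cfsg.Agent.Helper55.SuL
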