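import Mathlib
import Cfsg.Agent.H64.TmDefs

/-! S3701 team project "TM" (helper64): the permutation-group computations for TM-STRUCT.
`P = ⟨(012),(345),(678),(01)(34),(01)(67)⟩ ≤ Sym(9)` has the 108 elements
`A^i B^j C^k E`, `E ∈ {1, X, Y, XY}`. -/

set_option autoImplicit false

namespace Cfsg.Agent.Helper55.Tm

open Subgroup

/-- permutations of nine points -/
abbrev P9 : Type := Equiv.Perm (Fin 9)

/-- `(012)` -/
def pA : P9 := Equiv.swap (0 : Fin 9) 1 * Equiv.swap 1 2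
/-- `(345)` -/
def pB : P9 := Equiv.swap (3 : Fin 9) 4 * Equiv.swap 4 5
/-- `(678)` -/
def pC : P9 := Equiv.swap (6 : Fin 9) 7 * Equiv.swap 7 8
/-- `(01)(34)` -/
def pX : P9 := Equiv.swap (0 : Fin 9) 1 * Equiv.swap 3 4
/-- `(01)(67)` -/
def pY : P9 := Equiv.swap (0 : Fin 9) 1 * Equiv.swap 6 7

/-- the generating set -/
def S0 : Set P9 := {pA, pB, pC, pX, pY}

/-- the four coset representatives -/
def tl (e : Fin 4) : P9 := ![1, pX, pY, pX * pY] e

/-- the normal form -/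
def elt (i j k : Fin 3) (e : Fin 4) : P9 :=
  pA ^ (i : ℕ) * pB ^ (j : ℕ) * pC ^ (k : ℕ) * tl e

theorem mulA : ∀ (i j k : Fin 3) (e : Fin 4), pA * elt i j k e = elt (i + 1) j k e := by decide

theorem mulB : ∀ (i j k : Fin 3) (e : Fin 4), pB * elt i j k e = elt i (j + 1) k e := by decide

theorem mulC : ∀ (i j k : Fin 3) (e : Fin 4), pC * elt i j k e = elt i j (k + 1) e := by decide

theorem mulX : ∀ (i j k : Fin 3) (e : Fin 4),
    pX * elt i j k e = elt (-i) (-j) k (![1, 0, 3, 2] e) := by decide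

theorem mulY : ∀ (i j k : Fin 3) (e : Fin 4),
    pY * elt i j k e = elt (-i) j (-k) (![2, 3, 0, 1] e) := by decide

theorem mulA' : ∀ (i j k : Fin 3) (e : Fin 4), pA⁻¹ * elt i j k e = elt (i + 2) j k e := by
  decide

theorem mulB' : ∀ (i j k : Fin 3) (e : Fin 4), pB⁻¹ * elt i j k e = elt i (j + 2) k e := by
  decide

theorem mulC' : ∀ (i j k : Fin 3) (e : Fin 4), pC⁻¹ * elt i j k e = elt i j (k + 2) e := by
  decide

theorem mulX' : ∀ (i j k : Fin 3) (e : Fin 4),
    pX⁻¹ * elt i j k e = elt (-i) (-j) k (![1, 0, 3, 2] e) := by decide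

theorem mulY' : ∀ (i j k : Fin 3) (e : Fin 4),
    pY⁻¹ * elt i j k e = elt (-i) j (-k) (![2, 3, 0, 1] e) := by decide

end Cfsg.Agent.Helper55.Tm
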