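import Mathlib
import Cfsg.Agent.H64.TmDefs
import Cfsg.Agent.Helper55.TmStructBase

/-! S3701 team project "TM" (helper64): piece TM-STRUCT — the hypotheses of S3701 give the
normal-form configuration `Cfg`. -/

set_option autoImplicit false

namespace Cfsg.Agent.Helper55.Tm

open Subgroup Cfsg.Agent.H64.Tm

universe u

theorem elt_inj : ∀ (i j k : Fin 3) (e : Fin 4) (i' j' k' : Fin 3) (e' : Fin 4),
    elt i j k e = elt i' j' k' e' → i = i' ∧ j = j' ∧ k = k' ∧ e = e' := by decide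

theorem sqN' : ∀ (i j k : Fin 3) (e : Fin 4),
    elt i j k e * elt i j k e =
      elt (![i + i, 0, 0, i + i] e) (![j + j, 0, j + j, 0] e) (![k + k, k + k, 0, 0] e) 0 := by
  decide

theorem sqN (i j k : Fin 3) (e : Fin 4) : ∃ i' j' k' : Fin 3,
    elt i j k e * elt i j k e = elt i' j' k' 0 := ⟨_, _, _, sqN' i j k e⟩

theorem mulN : ∀ (i j k i' j' k' : Fin 3),
    elt i j k 0 * elt i' j' k' 0 = elt (i + i') (j + j') (k + k') 0 := by decide

theorem elt_zero : elt 0 0 0 0 = 1 := by decide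

theorem powN (n : ℕ) (i j k : Fin 3) :
    ∃ i' j' k' : Fin 3, elt i j k 0 ^ n = elt i' j' k' 0 := by
  induction n with
  | zero => exact ⟨0, 0, 0, by rw [pow_zero, elt_zero]⟩
  | succ n ih =>
    obtain ⟨i', j', k', h⟩ := ih
    exact ⟨i' + i, j' + j, k' + k, by rw [pow_succ, h, mulN]⟩

theorem pow27 (i j k : Fin 3) (e : Fin 4) (h : elt i j k e ^ 27 = 1) : e = 0 := by
  obtain ⟨i', j', k', h2⟩ := sqN i j k e
  obtain ⟨i'', j'', k'', h3⟩ := powN 14 i' j' k'
  have h4 : elt i j k e = elt i'' j'' k'' 0 := by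
    rw [← h3, ← h2, ← pow_two, ← pow_mul]
    have h5 : elt i j k e ^ (2 * 14) = elt i j k e ^ 27 * elt i j k e := by
      rw [← pow_succ]
    rw [h5, h, one_mul]
  exact (elt_inj _ _ _ _ _ _ _ _ h4).2.2.2

theorem inv27 (g : P9) (h2 : g * g = 1) (h : g ^ 27 = 1) : g = 1 := by
  have h3 : g ^ 27 = (g * g) ^ 13 * g := by
    rw [← pow_two, ← pow_mul, ← pow_succ]
  rw [h3, h2, one_pow, one_mul] at h
  exact h

theorem pA_mem : pA ∈ closure S0 := subset_closure (by simp [S0])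
theorem pB_mem : pB ∈ closure S0 := subset_closure (by simp [S0])
theorem pC_mem : pC ∈ closure S0 := subset_closure (by simp [S0])
theorem pX_mem : pX ∈ closure S0 := subset_closure (by simp [S0])
theorem pY_mem : pY ∈ closure S0 := subset_closure (by simp [S0])

theorem tl_mem (e : Fin 4) : tl e ∈ closure S0 := by
  fin_cases e
  · exact one_mem _
  · exact pX_mem
  · exact pY_mem
  · exact mul_mem pX_mem pY_mem

theorem elt_mem (i j k : Fin 3) (e : Fin 4) : elt i j k e ∈ closure S0 :=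
  mul_mem (mul_mem (mul_mem (pow_mem pA_mem _) (pow_mem pB_mem _)) (pow_mem pC_mem _))
    (tl_mem e)

theorem mem_elt {g : P9} (hg : g ∈ closure S0) :
    ∃ (i j k : Fin 3) (e : Fin 4), g = elt i j k e := by
  induction hg using Subgroup.closure_induction_left with
  | one => exact ⟨0, 0, 0, 0, elt_zero.symm⟩
  | mul_left s hs y _ ih =>
    obtain ⟨i, j, k, e, rfl⟩ := ih
    simp only [S0, Set.mem_insert_iff, Set.mem_singleton_iff] at hs
    rcases hs with rfl | rfl | rfl | rfl | rfl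
    · exact ⟨_, _, _, _, mulA i j k e⟩
    · exact ⟨_, _, _, _, mulB i j k e⟩
    · exact ⟨_, _, _, _, mulC i j k e⟩
    · exact ⟨_, _, _, _, mulX i j k e⟩
    · exact ⟨_, _, _, _, mulY i j k e⟩
  | inv_mul_cancel s hs y _ ih =>
    obtain ⟨i, j, k, e, rfl⟩ := ih
    simp only [S0, Set.mem_insert_iff, Set.mem_singleton_iff] at hs
    rcases hs with rfl | rfl | rfl | rfl | rfl
    · exact ⟨_, _, _, _, mulA' i j k e⟩
    · exact ⟨_, _, _, _, mulB' i j k e⟩
    · exact ⟨_, _, _, _, mulC' i j k e⟩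
    · exact ⟨_, _, _, _, mulX' i j k e⟩
    · exact ⟨_, _, _, _, mulY' i j k e⟩

/-- the group `P` -/
abbrev PG : Type := ↥(closure S0)

/-- generators of `P` -/
def gA : PG := ⟨pA, pA_mem⟩
/-- generators of `P` -/
def gB : PG := ⟨pB, pB_mem⟩
/-- generators of `P` -/
def gC : PG := ⟨pC, pC_mem⟩
/-- generators of `P` -/
def gX : PG := ⟨pX, pX_mem⟩
/-- generators of `P` -/
def gY : PG := ⟨pY, pY_mem⟩
/-- coset representatives in `P` -/
def gT (e : Fin 4) : PG := ⟨tl e, tl_mem e⟩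

theorem gT0 : gT 0 = 1 := rfl
theorem gT1 : gT 1 = gX := rfl
theorem gT2 : gT 2 = gY := rfl
theorem gT3 : gT 3 = gX * gY := rfl

theorem g_eq (g : PG) : ∃ (i j k : Fin 3) (e : Fin 4),
    g = gA ^ (i : ℕ) * gB ^ (j : ℕ) * gC ^ (k : ℕ) * gT e := by
  obtain ⟨i, j, k, e, h⟩ := mem_elt g.2
  exact ⟨i, j, k, e, Subtype.ext h⟩

theorem card_PG : Nat.card PG = 108 := by
  have hbij : Function.Bijective (fun p : Fin 3 × Fin 3 × Fin 3 × Fin 4 =>
      (⟨elt p.1 p.2.1 p.2.2.1 p.2.2.2, elt_mem _ _ _ _⟩ : PG)) := by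
    constructor
    · rintro ⟨i, j, k, e⟩ ⟨i', j', k', e'⟩ h
      have h' := congrArg Subtype.val h
      obtain ⟨h1, h2, h3, h4⟩ := elt_inj _ _ _ _ _ _ _ _ h'
      exact Prod.ext h1 (Prod.ext h2 (Prod.ext h3 h4))
    · intro g
      obtain ⟨i, j, k, e, h⟩ := mem_elt g.2
      exact ⟨(i, j, k, e), Subtype.ext h.symm⟩
  rw [← Nat.card_congr (Equiv.ofBijective _ hbij)]
  simp [Nat.card_eq_fintype_card]

theorem rA3 : gA ^ 3 = 1 := Subtype.ext (by decide : pA ^ 3 = 1)
theorem rB3 : gB ^ 3 = 1 := Subtype.ext (by decide : pB ^ 3 = 1)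
theorem rC3 : gC ^ 3 = 1 := Subtype.ext (by decide : pC ^ 3 = 1)
theorem rAB : gA * gB = gB * gA := Subtype.ext (by decide : pA * pB = pB * pA)
theorem rAC : gA * gC = gC * gA := Subtype.ext (by decide : pA * pC = pC * pA)
theorem rBC : gB * gC = gC * gB := Subtype.ext (by decide : pB * pC = pC * pB)
theorem rX2 : gX * gX = 1 := Subtype.ext (by decide : pX * pX = 1)
theorem rY2 : gY * gY = 1 := Subtype.ext (by decide : pY * pY = 1)
theorem rXY : gX * gY = gY * gX := Subtype.ext (by decide : pX * pY = pY * pX)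
theorem rXA : gX * gA = gA⁻¹ * gX := Subtype.ext (by decide : pX * pA = pA⁻¹ * pX)
theorem rXB : gX * gB = gB⁻¹ * gX := Subtype.ext (by decide : pX * pB = pB⁻¹ * pX)
theorem rXC : gX * gC = gC * gX := Subtype.ext (by decide : pX * pC = pC * pX)
theorem rYA : gY * gA = gA⁻¹ * gY := Subtype.ext (by decide : pY * pA = pA⁻¹ * pY)
theorem rYB : gY * gB = gB * gY := Subtype.ext (by decide : pY * pB = pB * pY)
theorem rYC : gY * gC = gC⁻¹ * gY := Subtype.ext (by decide : pY * pC = pC⁻¹ * pY)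

theorem indepF : ∀ r s t : Fin 3,
    pA ^ (r : ℕ) * pB ^ (s : ℕ) * pC ^ (t : ℕ) = 1 → r = 0 ∧ s = 0 ∧ t = 0 := by decide

theorem indep9 (i j k : ℕ) (h : pA ^ i * pB ^ j * pC ^ k = 1) : 3 ∣ i ∧ 3 ∣ j ∧ 3 ∣ k := by
  have hA : pA ^ 3 = 1 := by decide
  have hB : pB ^ 3 = 1 := by decide
  have hC : pC ^ 3 = 1 := by decide
  rw [pow_eq_pow_mod i hA, pow_eq_pow_mod j hB, pow_eq_pow_mod k hC] at h
  obtain ⟨h1, h2, h3⟩ := indepF ⟨i % 3, Nat.mod_lt _ (by norm_num)⟩
    ⟨j % 3, Nat.mod_lt _ (by norm_num)⟩ ⟨k % 3, Nat.mod_lt _ (by norm_num)⟩ h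
  exact ⟨Nat.dvd_of_mod_eq_zero (congrArg Fin.val h1),
    Nat.dvd_of_mod_eq_zero (congrArg Fin.val h2), Nat.dvd_of_mod_eq_zero (congrArg Fin.val h3)⟩

theorem pX_ne : pX ≠ 1 := by decide
theorem pY_ne : pY ≠ 1 := by decide
theorem pXY_ne : pX * pY ≠ 1 := by decide
theorem pXY_sq : (pX * pY) * (pX * pY) = 1 := by decide

theorem struct_aux {G : Type u} [Group G] [Finite G] (H T : Subgroup G) (ψ : PG →* G)
    (hinj : Function.Injective ψ) (hH : ∀ g, ψ g ∈ H) (hsurj : ∀ h ∈ H, ∃ g, ψ g = h)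
    (hTH : T ≤ H) (hT27 : Nat.card T = 27) (hnorm : normalizer (T : Set G) = H)
    (hloc : ∀ t ∈ T, t ≠ 1 → centralizer ({t} : Set G) ≤ H) :
    Cfg G H T (ψ gA) (ψ gB) (ψ gC) (ψ gX) (ψ gY) := by
  have hpow : ∀ t ∈ T, t ^ 27 = 1 := by
    intro t ht
    have h1 : (⟨t, ht⟩ : T) ^ Nat.card T = 1 := pow_card_eq_one'
    rw [hT27] at h1
    exact congrArg Subtype.val h1
  have hpull : ∀ g : PG, ψ g ^ 27 = 1 → (g : P9) ^ 27 = 1 := by
    intro g hg
    have h1 : ψ (g ^ 27) = ψ 1 := by rw [map_pow, hg, map_one]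
    exact congrArg Subtype.val (hinj h1)
  have hK : ∀ t ∈ T, ∃ i j k : Fin 3,
      t = ψ gA ^ (i : ℕ) * ψ gB ^ (j : ℕ) * ψ gC ^ (k : ℕ) := by
    intro t ht
    obtain ⟨g, rfl⟩ := hsurj t (hTH ht)
    obtain ⟨i, j, k, e, hg⟩ := g_eq g
    have h27 := hpull g (hpow _ ht)
    have hg1 : (g : P9) = elt i j k e := congrArg Subtype.val hg
    rw [hg1] at h27
    have he := pow27 i j k e h27
    subst he
    refine ⟨i, j, k, ?_⟩
    rw [hg, gT0, mul_one, map_mul, map_mul, map_pow, map_pow, map_pow]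
  have hT1 : (T : Set G) = Set.range (fun p : Fin 3 × Fin 3 × Fin 3 =>
      ψ gA ^ (p.1 : ℕ) * ψ gB ^ (p.2.1 : ℕ) * ψ gC ^ (p.2.2 : ℕ)) := by
    apply Set.eq_of_subset_of_ncard_le
    · intro t ht
      obtain ⟨i, j, k, h⟩ := hK t ht
      exact ⟨(i, j, k), h.symm⟩
    · have h1 : (T : Set G).ncard = 27 := by
        rw [← Nat.card_coe_set_eq]
        exact hT27
      rw [h1, ← Set.image_univ]
      refine (Set.ncard_image_le (Set.finite_univ)).trans ?_
      rw [Set.ncard_univ]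
      simp [Nat.card_eq_fintype_card]
    · exact Set.toFinite _
  have haT : ψ gA ∈ T := by
    have h : ψ gA ∈ (T : Set G) := by
      rw [hT1]
      exact ⟨(1, 0, 0), by simp⟩
    exact h
  have hbT : ψ gB ∈ T := by
    have h : ψ gB ∈ (T : Set G) := by
      rw [hT1]
      exact ⟨(0, 1, 0), by simp⟩
    exact h
  have hcT : ψ gC ∈ T := by
    have h : ψ gC ∈ (T : Set G) := by
      rw [hT1]
      exact ⟨(0, 0, 1), by simp⟩
    exact h
  refine
    { cardT := hT27
      cardH := ?_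
      TH := hTH
      aT := haT
      bT := hbT
      cT := hcT
      xH := hH _
      yH := hH _
      a3 := by rw [← map_pow, rA3, map_one]
      b3 := by rw [← map_pow, rB3, map_one]
      c3 := by rw [← map_pow, rC3, map_one]
      ab := by rw [← map_mul, ← map_mul, rAB]
      ac := by rw [← map_mul, ← map_mul, rAC]
      bc := by rw [← map_mul, ← map_mul, rBC]
      x2 := by rw [← map_mul, rX2, map_one]
      y2 := by rw [← map_mul, rY2, map_one]
      xy := by rw [← map_mul, ← map_mul, rXY]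
      xa := by rw [← map_inv, ← map_mul, ← map_mul, rXA]
      xb := by rw [← map_inv, ← map_mul, ← map_mul, rXB]
      xc := by rw [← map_mul, ← map_mul, rXC]
      ya := by rw [← map_inv, ← map_mul, ← map_mul, rYA]
      yb := by rw [← map_mul, ← map_mul, rYB]
      yc := by rw [← map_inv, ← map_mul, ← map_mul, rYC]
      Telts := ?_
      indep := ?_
      Helts := ?_
      xT := ?_
      yT := ?_
      xyT := ?_
      norm := hnorm
      loc := hloc }
  · -- cardH
    have hbij : Function.Bijective (fun g : PG => (⟨ψ g, hH g⟩ : H)) := by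
      constructor
      · intro g g' h
        exact hinj (congrArg Subtype.val h)
      · rintro ⟨h, hh⟩
        obtain ⟨g, hg⟩ := hsurj h hh
        exact ⟨g, Subtype.ext hg⟩
    rw [← Nat.card_congr (Equiv.ofBijective _ hbij), card_PG]
  · -- Telts
    intro t ht
    obtain ⟨i, j, k, h⟩ := hK t ht
    exact ⟨i, j, k, h⟩
  · -- indep
    intro i j k h
    have h1 : ψ (gA ^ i * gB ^ j * gC ^ k) = ψ 1 := by
      rw [map_mul, map_mul, map_pow, map_pow, map_pow, h, map_one]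
    exact indep9 i j k (congrArg Subtype.val (hinj h1))
  · -- Helts
    intro h hh
    obtain ⟨g, rfl⟩ := hsurj h hh
    obtain ⟨i, j, k, e, hg⟩ := g_eq g
    refine ⟨ψ gA ^ (i : ℕ) * ψ gB ^ (j : ℕ) * ψ gC ^ (k : ℕ),
      mul_mem (mul_mem (pow_mem haT _) (pow_mem hbT _)) (pow_mem hcT _), ?_⟩
    rw [hg, map_mul, map_mul, map_mul, map_pow, map_pow, map_pow]
    fin_cases e
    · left
      show _ * ψ (gT 0) = _
      rw [gT0, map_one, mul_one]
    · right; left
      show _ * ψ (gT 1) = _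
      rw [gT1]
    · right; right; left
      show _ * ψ (gT 2) = _
      rw [gT2]
    · right; right; right
      show _ * ψ (gT 3) = _
      rw [gT3, map_mul]
  · -- xT
    intro hx
    exact pX_ne (inv27 pX (by decide) (hpull gX (hpow _ hx)))
  · -- yT
    intro hy
    exact pY_ne (inv27 pY (by decide) (hpull gY (hpow _ hy)))
  · -- xyT
    intro hxy
    have h1 : ψ (gX * gY) ∈ T := by
      rw [map_mul]
      exact hxy
    exact pXY_ne (inv27 (pX * pY) pXY_sq (hpull (gX * gY) (hpow _ h1)))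

/-- [TM-STRUCT] -/
theorem struct : StStruct.{u} := by
  intro G _ _ H hH T hTH hT27 hnorm hloc
  obtain ⟨φ⟩ := hH
  have φ' : ↥H ≃* PG := φ
  refine ⟨_, _, _, _, _, struct_aux H T (H.subtype.comp φ'.symm.toMonoidHom) ?_ ?_ ?_ hTH hT27
    hnorm hloc⟩
  · exact H.subtype_injective.comp φ'.symm.injective
  · intro g
    exact (φ'.symm g).2
  · intro h hh
    exact ⟨φ' ⟨h, hh⟩, by simp⟩

end Cfsg.Agent.Helper55.Tm

universe u in
example : Cfsg.Agent.H64.Tm.StStruct.{u} := Cfsg.Agent.Helper55.Tm.struct.{u}
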